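import Cfsg.Agent.Even.CharPMisc
import Cfsg.Prelude.Def_LocalEven
import Cfsg.Prelude.Def_LocalStructure

set_option autoImplicit false

/-! Criteria for parabolic and local characteristic `p`. -/

namespace Cfsg.Agent.Even

open Cfsg

variable {G : Type*} [Group G] [Finite G] {p : ℕ} [Fact p.Prime]

theorem charP_of_centralizer (B : Subgroup G) (hB : IsPGroup p ↥B)
    (hD : PSolv.SelfCentralizingCore p ↥(Subgroup.centralizer (B : Set G))) :
    PSolv.SelfCentralizingCore p ↥(Subgroup.normalizer (B : Set G)) := by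
  set M := Subgroup.normalizer (B : Set G)
  set D := Subgroup.centralizer (B : Set G)
  have hBM : B ≤ M := Subgroup.le_normalizer
  have hDM : D ≤ M := Subgroup.centralizer_le_normalizer _
  have hBcore : B.subgroupOf M ≤ pCore p ↥M :=
    Solv.le_pCore Subgroup.normal_in_normalizer (hB.of_equiv (Subgroup.subgroupOfEquivOfLe hBM).symm)
  have hDn : (D.subgroupOf M).Normal := by
    refine ⟨fun x hx g => ?_⟩
    rw [Subgroup.mem_subgroupOf, Subgroup.mem_centralizer_iff]
    intro b hb
    have hg := (Subgroup.mem_normalizer_iff.1 (M.inv_mem g.2) b).1 hb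
    have e := Subgroup.mem_centralizer_iff.1 hx _ hg
    simp only [Subgroup.coe_mul, Subgroup.coe_inv, inv_inv] at e ⊢
    calc b * ((g : G) * (x : G) * (g : G)⁻¹)
        = (g : G) * (((g : G)⁻¹ * b * (g : G)) * (x : G)) * (g : G)⁻¹ := by group
      _ = (g : G) * ((x : G) * ((g : G)⁻¹ * b * (g : G))) * (g : G)⁻¹ :=
          congrArg (fun t : G => (g : G) * t * (g : G)⁻¹) e
      _ = _ := by group
  have hcore : (pCore p ↥(D.subgroupOf M)).map (D.subgroupOf M).subtype ≤ pCore p ↥M := by
    refine Solv.le_pCore_of_isSubnormal ?_ (((Solv.pCore_mem (G := ↥(D.subgroupOf M)) p).2).map _)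
    refine Subgroup.IsSubnormal.step _ (D.subgroupOf M) (Subgroup.map_subtype_le _) hDn.isSubnormal ?_
    show ((Subgroup.map (D.subgroupOf M).subtype _).comap (D.subgroupOf M).subtype).Normal
    rw [Subgroup.comap_map_eq_self_of_injective (Subgroup.subtype_injective _)]
    infer_instance
  have hDM' : PSolv.SelfCentralizingCore p ↥(D.subgroupOf M) :=
    PSolv.selfCentralizingCore_congr (Subgroup.subgroupOfEquivOfLe hDM).symm hD
  intro x hx
  have hxD : x ∈ D.subgroupOf M := by
    rw [Subgroup.mem_subgroupOf, Subgroup.mem_centralizer_iff]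
    intro b hb
    exact congrArg Subtype.val (Subgroup.mem_centralizer_iff.1 hx ⟨b, hBM hb⟩ (hBcore hb))
  refine hcore ⟨⟨x, hxD⟩, hDM' ?_, rfl⟩
  rw [Subgroup.mem_centralizer_iff]
  intro y hy
  exact Subtype.ext (Subgroup.mem_centralizer_iff.1 hx (y : M) (hcore ⟨y, hy, rfl⟩))

theorem centralizer_zpowers_eq (z : G) :
    Subgroup.centralizer ((Subgroup.zpowers z : Subgroup G) : Set G) = Subgroup.centralizer ({z} : Set G) := by
  ext g
  rw [Subgroup.mem_centralizer_iff, Subgroup.mem_centralizer_singleton_iff]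
  refine ⟨fun h => (h z (Subgroup.mem_zpowers z)).symm, fun h y hy => ?_⟩
  obtain ⟨k, rfl⟩ := Subgroup.mem_zpowers_iff.1 hy
  exact ((show Commute g z from h).symm.zpow_left k).eq

theorem charP_normalizer_of_central {X : Subgroup G} (hXp : IsPGroup p X) {z : G} (hzX : z ∈ X)
    (hzc : ∀ x ∈ X, x * z = z * x)
    (hz : PSolv.SelfCentralizingCore p ↥(Subgroup.centralizer ({z} : Set G))) :
    generalizedFittingSubgroup ↥(Subgroup.normalizer (X : Set G)) = pCore p ↥(Subgroup.normalizer (X : Set G)) := by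
  have hCX : Subgroup.zpowers z ≤ X := Subgroup.zpowers_le.2 hzX
  have hn : ((Subgroup.zpowers z).subgroupOf X).Normal := by
    refine ⟨fun y hy g => ?_⟩
    rw [Subgroup.mem_subgroupOf] at hy ⊢
    obtain ⟨k, hk⟩ := Subgroup.mem_zpowers_iff.1 hy
    have e : ((g * y * g⁻¹ : X) : G) = (y : G) := by
      simp only [Subgroup.coe_mul, Subgroup.coe_inv, ← hk]
      rw [((show Commute (g : G) z from hzc g g.2).zpow_right k).eq]; group
    rw [e, ← hk]; exact ⟨k, rfl⟩
  refine (charP_normalizer_of_normal X _ hXp hCX hn (Layer.fstar_eq_pCore_iff.2 ?_)).1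
  exact charP_of_centralizer _ (hXp.to_le hCX) (by rw [centralizer_zpowers_eq]; exact hz)

theorem charP_centralizer_conj {z g : G}
    (hz : PSolv.SelfCentralizingCore p ↥(Subgroup.centralizer ({z} : Set G))) :
    PSolv.SelfCentralizingCore p ↥(Subgroup.centralizer ({g * z * g⁻¹} : Set G)) := by
  have e : (Subgroup.centralizer ({z} : Set G)).map (MulAut.conj g).toMonoidHom =
      Subgroup.centralizer ({g * z * g⁻¹} : Set G) := by
    ext c
    rw [Subgroup.mem_centralizer_singleton_iff]
    constructor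
    · rintro ⟨d, hd, rfl⟩
      have hd' : d * z = z * d := Subgroup.mem_centralizer_singleton_iff.1 hd
      show g * d * g⁻¹ * (g * z * g⁻¹) = g * z * g⁻¹ * (g * d * g⁻¹)
      calc g * d * g⁻¹ * (g * z * g⁻¹) = g * (d * z) * g⁻¹ := by group
        _ = g * (z * d) * g⁻¹ := by rw [hd']
        _ = _ := by group
    · intro hc
      refine ⟨g⁻¹ * c * g, Subgroup.mem_centralizer_singleton_iff.2 ?_, by simp [mul_assoc]⟩
      calc g⁻¹ * c * g * z = g⁻¹ * (c * (g * z * g⁻¹)) * g := by group
        _ = g⁻¹ * (g * z * g⁻¹ * c) * g := by rw [hc]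
        _ = _ := by group
  rw [← e]
  exact PSolv.selfCentralizingCore_congr
    (Subgroup.equivMapOfInjective _ (MulAut.conj g).toMonoidHom (MulAut.conj g).injective) hz

theorem exists_central_order_p {X : Subgroup G} (hXp : IsPGroup p X) (hX : X ≠ ⊥) :
    ∃ z ∈ X, orderOf z = p ∧ ∀ x ∈ X, x * z = z * x := by
  have : Nontrivial X := (Subgroup.nontrivial_iff_ne_bot X).2 hX
  have := hXp.center_nontrivial
  obtain ⟨z, hz⟩ := exists_prime_orderOf_dvd_card' (G := Subgroup.center X) p (by
    obtain ⟨n, hn0, hn⟩ := (hXp.to_subgroup (Subgroup.center X)).nontrivial_iff_card.1 this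
    rw [hn]; exact dvd_pow_self p (by omega))
  exact ⟨((z : X) : G), (z : X).2, (Subgroup.orderOf_coe (z : X)).trans ((Subgroup.orderOf_coe z).trans hz),
    fun x hx => congrArg Subtype.val (Subgroup.mem_center_iff.1 z.2 ⟨x, hx⟩)⟩

theorem local_criteria (S : Sylow p G) (hdiv : p ∣ Nat.card G) (X : Subgroup G) (hX : X ≤ (S : Subgroup G)) :
    (∀ z : G, z ≠ 1 → z ∈ X → (∀ x ∈ X, x * z = z * x) →
        generalizedFittingSubgroup ↥(Subgroup.centralizer ({z} : Set G)) = pCore p ↥(Subgroup.centralizer ({z} : Set G)) →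
        generalizedFittingSubgroup ↥(Subgroup.normalizer (X : Set G)) = pCore p ↥(Subgroup.normalizer (X : Set G))) ∧
      (IsOfParabolicCharacteristic p G ↔ ∀ z : G, z ≠ 1 →
        z ∈ omegaOne p ((S : Subgroup G) ⊓ Subgroup.centralizer ((S : Subgroup G) : Set G)) →
        generalizedFittingSubgroup ↥(Subgroup.centralizer ({z} : Set G)) = pCore p ↥(Subgroup.centralizer ({z} : Set G))) ∧
      ((∀ z : G, z ∈ (S : Subgroup G) → orderOf z = p →
          generalizedFittingSubgroup ↥(Subgroup.centralizer ({z} : Set G)) = pCore p ↥(Subgroup.centralizer ({z} : Set G))) →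
        IsOfLocalCharacteristic p G) := by
  have hp : p.Prime := Fact.out
  refine ⟨fun z _ hzX hzc hz => charP_normalizer_of_central (S.2.to_le hX) hzX hzc (Layer.fstar_eq_pCore_iff.1 hz),
    ⟨fun hpar z hz1 hzΩ => ?_, fun h => ?_⟩, fun h => ⟨hdiv, fun T hT hT1 => ?_⟩⟩
  · have hsup : omegaOne p ((S : Subgroup G) ⊓ Subgroup.centralizer ((S : Subgroup G) : Set G)) ≤
        (S : Subgroup G) ⊓ Subgroup.centralizer ((S : Subgroup G) : Set G) := by
      rw [omegaOne, Subgroup.closure_le]; exact fun x hx => hx.1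
    obtain ⟨hzS, hzc⟩ := hsup hzΩ
    set R := Subgroup.zpowers z
    have hR : IsPGroup p R := S.2.to_le (Subgroup.zpowers_le.2 hzS)
    have hSN : (S : Subgroup G) ≤ Subgroup.normalizer (R : Set G) := by
      refine le_trans (fun s hs => ?_) (Subgroup.centralizer_le_normalizer _)
      rw [centralizer_zpowers_eq, Subgroup.mem_centralizer_singleton_iff]
      exact hzc s hs
    have h1 : PSolv.SelfCentralizingCore p ↥(Subgroup.normalizer (R : Set G)) :=
      hpar R hR (by rw [Ne, Subgroup.zpowers_eq_bot]; exact hz1) ⟨S, hSN⟩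
    rw [Layer.fstar_eq_pCore_iff, ← centralizer_zpowers_eq]
    have hDM : Subgroup.centralizer (R : Set G) ≤ Subgroup.normalizer (R : Set G) := Subgroup.centralizer_le_normalizer _
    have hn : ((Subgroup.centralizer (R : Set G)).subgroupOf (Subgroup.normalizer (R : Set G))).Normal := by
      refine ⟨fun x hx g => ?_⟩
      rw [Subgroup.mem_subgroupOf, Subgroup.mem_centralizer_iff]
      intro b hb
      have hg := (Subgroup.mem_normalizer_iff.1 ((Subgroup.normalizer (R : Set G)).inv_mem g.2) b).1 hb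
      have e := Subgroup.mem_centralizer_iff.1 hx _ hg
      simp only [Subgroup.coe_mul, Subgroup.coe_inv, inv_inv] at e ⊢
      calc b * ((g : G) * (x : G) * (g : G)⁻¹)
          = (g : G) * (((g : G)⁻¹ * b * (g : G)) * (x : G)) * (g : G)⁻¹ := by group
        _ = (g : G) * ((x : G) * ((g : G)⁻¹ * b * (g : G))) * (g : G)⁻¹ :=
            congrArg (fun t : G => (g : G) * t * (g : G)⁻¹) e
        _ = _ := by group
    exact PSolv.selfCentralizingCore_congr (Subgroup.subgroupOfEquivOfLe hDM) (Layer.charP_normal h1 _)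
  · intro R hR hR1 ⟨T, hT⟩
    obtain ⟨g, hg⟩ := MulAction.exists_smul_eq G S T
    have hRT : R ≤ (T : Subgroup G) := by
      have h2 := Solv.pCore_le_sylow (T.subtype hT)
      have h3 := Solv.le_pCore Subgroup.normal_in_normalizer
        (hR.of_equiv (Subgroup.subgroupOfEquivOfLe (Subgroup.le_normalizer : R ≤ Subgroup.normalizer (R : Set G))).symm)
      exact fun r hr => h2 (h3 (show (⟨r, Subgroup.le_normalizer hr⟩ : Subgroup.normalizer (R : Set G)) ∈ R.subgroupOf _ from hr))
    -- a central element of order `p` of `T` inside `R`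
    have hn : (R.subgroupOf (T : Subgroup G)).Normal :=
      (Subgroup.normal_subgroupOf_iff_le_normalizer hRT).2 hT
    have hTp : IsPGroup p (T : Subgroup G) := T.2
    have hRne : R.subgroupOf (T : Subgroup G) ≠ ⊥ := fun e => hR1 (le_bot_iff.1 (fun r hr => by
      have : (⟨r, hRT hr⟩ : (T : Subgroup G)) ∈ R.subgroupOf (T : Subgroup G) := hr
      rw [e, Subgroup.mem_bot] at this
      exact congrArg Subtype.val this))
    have : Group.IsNilpotent (T : Subgroup G) := hTp.isNilpotent
    have hne := Solv.inf_center_ne_bot hn hRne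
    obtain ⟨z, hzR, hzp, -⟩ := exists_central_order_p (hTp.to_le (Subgroup.map_subtype_le
      (R.subgroupOf (T : Subgroup G) ⊓ Subgroup.center (T : Subgroup G))))
      (fun e => hne ((Subgroup.map_eq_bot_iff_of_injective _ (T : Subgroup G).subtype_injective).1 e))
    obtain ⟨w, ⟨hwR, hwZ⟩, rfl⟩ := hzR
    have hwS : g⁻¹ * (w : G) * g ∈ (S : Subgroup G) := by
      obtain ⟨s, hs, e⟩ : ∃ s ∈ (S : Subgroup G), g * s * g⁻¹ = (w : G) := by
        have hsub : ∀ y : G, y ∈ (T : Subgroup G) → ∃ s ∈ (S : Subgroup G), g * s * g⁻¹ = y := by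
          intro y hy; rw [← hg] at hy; exact hy
        exact hsub _ w.2
      rw [← e]
      show g⁻¹ * (g * s * g⁻¹) * g ∈ _
      simpa [mul_assoc] using (SetLike.mem_coe.1 hs)
    have hwc : g⁻¹ * (w : G) * g ∈ Subgroup.centralizer ((S : Subgroup G) : Set G) := by
      intro s hs
      have hgs : g * s * g⁻¹ ∈ (T : Subgroup G) := by rw [← hg]; exact ⟨s, hs, rfl⟩
      have e : g * s * g⁻¹ * (w : G) = (w : G) * (g * s * g⁻¹) :=
        congrArg Subtype.val (Subgroup.mem_center_iff.1 hwZ ⟨_, hgs⟩)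
      calc s * (g⁻¹ * (w : G) * g) = g⁻¹ * (g * s * g⁻¹ * (w : G)) * g := by group
        _ = g⁻¹ * ((w : G) * (g * s * g⁻¹)) * g := by rw [e]
        _ = g⁻¹ * (w : G) * g * s := by group
    have hord : orderOf (g⁻¹ * (w : G) * g) = p := by
      have h4 := orderOf_injective (MulAut.conj g⁻¹).toMonoidHom (MulAut.conj _).injective (w : G)
      simp only [MulEquiv.coe_toMonoidHom, MulAut.conj_apply, inv_inv] at h4
      rw [h4]; exact hzp
    have h5 := Layer.fstar_eq_pCore_iff.1 (h _ (fun e => by rw [e, orderOf_one] at hord; exact hp.one_lt.ne hord)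
      (Subgroup.subset_closure ⟨⟨hwS, hwc⟩, orderOf_dvd_iff_pow_eq_one.1 hord.dvd⟩))
    have h6 := charP_centralizer_conj (g := g) h5
    rw [show g * (g⁻¹ * (w : G) * g) * g⁻¹ = (w : G) by group] at h6
    exact Layer.fstar_eq_pCore_iff.1 (charP_normalizer_of_central hR hwR
      (fun x hx => congrArg Subtype.val (Subgroup.mem_center_iff.1 hwZ ⟨x, hRT hx⟩)) h6)
  · obtain ⟨z, hzT, hzp, hzc⟩ := exists_central_order_p hT hT1
    obtain ⟨P, hP⟩ := hT.exists_le_sylow
    obtain ⟨g, hg⟩ := MulAction.exists_smul_eq G S P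
    have hm : g⁻¹ * z * g ∈ (S : Subgroup G) := by
      have := hP hzT
      rw [← hg] at this
      obtain ⟨s, hs, e⟩ := this
      rw [← e]
      show g⁻¹ * (g * s * g⁻¹) * g ∈ _
      simpa [mul_assoc] using (SetLike.mem_coe.1 hs)
    have hord : orderOf (g⁻¹ * z * g) = p := by
      have h4 := orderOf_injective (MulAut.conj g⁻¹).toMonoidHom (MulAut.conj _).injective z
      simp only [MulEquiv.coe_toMonoidHom, MulAut.conj_apply, inv_inv] at h4
      rw [h4, hzp]
    have h6 := charP_centralizer_conj (g := g) (Layer.fstar_eq_pCore_iff.1 (h _ hm hord))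
    rw [show g * (g⁻¹ * z * g) * g⁻¹ = z by group] at h6
    exact Layer.fstar_eq_pCore_iff.1 (charP_normalizer_of_central hT hzT hzc h6)

end Cfsg.Agent.Even
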