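import Cfsg.Agent.Coprime.Basic
import Cfsg.Agent.Coprime.AxB
import Cfsg.Agent.Solv.Cores
import Cfsg.Prelude.Def_Solvable
import Mathlib

set_option autoImplicit false

/-! Overgroups of self-centralizing normal subgroups of a Sylow subgroup in groups of characteristic `p`. -/

namespace Cfsg.Agent.Even.CharP

open scoped commutatorElement
open Cfsg

variable {G : Type*} [Group G] [Finite G] {p : ℕ} [Fact p.Prime]

theorem isPGroup_of_coprime {X : Subgroup G} (h : ∀ x ∈ X, (orderOf x).Coprime p → x = 1) : IsPGroup p X := by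
  rintro ⟨x, hx⟩
  refine ⟨(orderOf x).factorization p, Subtype.ext ?_⟩
  rw [SubmonoidClass.coe_pow, OneMemClass.coe_one]
  refine h _ (X.pow_mem hx _) ?_
  have hpos := orderOf_pos x
  rw [orderOf_pow, Nat.gcd_eq_right (Nat.ordProj_dvd _ _)]
  exact (Nat.coprime_ordCompl Fact.out hpos.ne').symm

theorem coe_eq_one_of_pow {z : G} {a m : ℕ} (h1 : z ^ p ^ a = 1) (h2 : z ^ m = 1) (hm : m.Coprime p) : z = 1 := by
  have := pow_gcd_eq_one.2 ⟨h1, h2⟩
  rwa [Nat.Coprime.gcd_eq_one ((Nat.Coprime.pow_left a hm.symm)), pow_one] at this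

variable (hG : Subgroup.centralizer (pCore p G : Set G) ≤ pCore p G)

include hG in
theorem eq_one_of_centralizes_core {x : G} (hx : (orderOf x).Coprime p)
    (h : pCore p G ≤ Subgroup.centralizer {x}) : x = 1 := by
  have hxO : x ∈ pCore p G := hG fun y hy => Subgroup.mem_centralizer_singleton_iff.1 (h hy)
  obtain ⟨a, ha⟩ := (Cfsg.Agent.Solv.pCore_mem (G := G) p).2 ⟨x, hxO⟩
  exact coe_eq_one_of_pow (congrArg Subtype.val ha) (pow_orderOf_eq_one x) hx

include hG in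
theorem centralizer_le (T : Sylow p G) {Q : Subgroup G} (hQT : Q ≤ T)
    (hQn : (T : Subgroup G) ≤ Subgroup.normalizer (Q : Set G))
    (hC : (T : Subgroup G) ⊓ Subgroup.centralizer (Q : Set G) ≤ Q) :
    Subgroup.centralizer (Q : Set G) ≤ Q := by
  have hOT : pCore p G ≤ (T : Subgroup G) := Cfsg.Agent.Solv.pCore_le_sylow T
  have hOn : (pCore p G).Normal := inferInstance
  have hCp : IsPGroup p (Subgroup.centralizer (Q : Set G)) := by
    refine isPGroup_of_coprime fun x hx hxc => eq_one_of_centralizes_core hG hxc ?_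
    refine le_trans (le_sup_left (b := Q)) (Cfsg.Agent.CoprimeAct.le_centralizer_of_axb (R := Q)
      (T.2.to_le (sup_le hOT hQT)) hxc ?_ le_sup_right ?_ ?_)
    · refine Subgroup.mem_normalizer_iff_map_conj_eq.2 ?_
      rw [Subgroup.map_sup, Subgroup.mem_normalizer_iff_map_conj_eq.1 (by rw [Subgroup.normalizer_eq_top]; trivial : x ∈ Subgroup.normalizer (pCore p G : Set G)),
        Subgroup.mem_normalizer_iff_map_conj_eq.1 (Subgroup.centralizer_le_normalizer _ hx)]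
    · exact fun y hy => Subgroup.mem_centralizer_singleton_iff.2 (hx y hy)
    · intro y hy
      exact Subgroup.mem_centralizer_singleton_iff.2 (hx y (hC ⟨sup_le hOT hQT hy.1, hy.2⟩))
  have hn : (T : Subgroup G) ≤ Subgroup.normalizer ((Subgroup.centralizer (Q : Set G) : Subgroup G) : Set G) := by
    intro t ht
    rw [Subgroup.mem_normalizer_iff]
    intro y
    have key : ∀ t' : G, t' ∈ Subgroup.normalizer (Q : Set G) → ∀ y ∈ Subgroup.centralizer (Q : Set G),
        t' * y * t'⁻¹ ∈ Subgroup.centralizer (Q : Set G) := by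
      intro t' ht' y hy z hz
      have h2 := hy _ ((Subgroup.mem_normalizer_iff.1 (inv_mem ht') z).1 hz)
      calc z * (t' * y * t'⁻¹) = t' * ((t'⁻¹ * z * t'⁻¹⁻¹) * y) * t'⁻¹ := by group
        _ = t' * (y * (t'⁻¹ * z * t'⁻¹⁻¹)) * t'⁻¹ := by rw [h2]
        _ = _ := by group
    exact ⟨key t (hQn ht) y, fun h => by simpa [mul_assoc] using key t⁻¹ (inv_mem (hQn ht)) _ h⟩
  have h3 := T.3 (Q := Subgroup.centralizer (Q : Set G) ⊔ (T : Subgroup G))
    (IsPGroup.to_sup_of_normal_left' hCp T.2 hn) le_sup_right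
  intro x hx
  exact hC ⟨h3.le (Subgroup.mem_sup_left hx), hx⟩

include hG in
theorem overgroup (T : Sylow p G) {Q : Subgroup G} (hQT : Q ≤ T)
    (hQn : (T : Subgroup G) ≤ Subgroup.normalizer (Q : Set G))
    (hC : (T : Subgroup G) ⊓ Subgroup.centralizer (Q : Set G) ≤ Q) {L : Subgroup G} (hQL : Q ≤ L) :
    Subgroup.centralizer (pCore p L : Set L) ≤ pCore p L := by
  have hCQ := centralizer_le hG T hQT hQn hC
  set O := pCore p G with hO
  have hOp : IsPGroup p O := (Cfsg.Agent.Solv.pCore_mem (G := G) p).2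
  have hOT : O ≤ (T : Subgroup G) := Cfsg.Agent.Solv.pCore_le_sylow T
  have hOn : O.Normal := inferInstance
  set X := (Subgroup.centralizer (pCore p L : Set L)).map L.subtype with hX
  set OL := (pCore p L).map L.subtype with hOL
  have hOLp : IsPGroup p OL := (Cfsg.Agent.Solv.pCore_mem (G := L) p).2.map _
  have hXn : (Subgroup.centralizer (pCore p L : Set L)).Normal := inferInstance
  have hXL : X ≤ L := Subgroup.map_subtype_le _
  have hLX : L ≤ Subgroup.normalizer (X : Set G) :=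
    (Subgroup.normal_subgroupOf_iff_le_normalizer hXL).1 (by
      rw [hX, Subgroup.subgroupOf, Subgroup.comap_map_eq_self_of_injective L.subtype_injective]; exact hXn)
  have hLOL : L ≤ Subgroup.normalizer (OL : Set G) :=
    (Subgroup.normal_subgroupOf_iff_le_normalizer (Subgroup.map_subtype_le _)).1 (by
      rw [Subgroup.subgroupOf, Subgroup.comap_map_eq_self_of_injective L.subtype_injective]
      exact inferInstance)
  have hXOL : ∀ x ∈ X, ∀ y ∈ OL, y * x = x * y := by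
    rintro _ ⟨x, hx, rfl⟩ _ ⟨y, hy, rfl⟩
    exact congrArg Subtype.val (hx y hy)
  set R := O ⊓ L
  have hRO : R ≤ OL := by
    intro r hr
    refine ⟨⟨r, hr.2⟩, ?_, rfl⟩
    refine Cfsg.Agent.Solv.le_pCore (N := O.subgroupOf L) inferInstance
      ((hOp.to_le (inf_le_left : O ⊓ L ≤ O)).of_equiv ?_) hr.1
    exact ((Subgroup.subgroupOfEquivOfLe (inf_le_right : O ⊓ L ≤ L)).symm.trans
      (MulEquiv.subgroupCongr (Subgroup.inf_subgroupOf_right O L)))
  set W := O ⊓ Subgroup.centralizer (R : Set G)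
  have hXW : ∀ x ∈ X, ∀ w ∈ W, x * w * x⁻¹ ∈ W := by
    intro x hx w hw
    refine ⟨hOn.conj_mem w hw.1 x, fun r hr => ?_⟩
    have h2 : x⁻¹ * r * x⁻¹⁻¹ = r := by
      rw [← hXOL x⁻¹ (X.inv_mem hx) r (hRO hr), mul_inv_cancel_right]
    calc r * (x * w * x⁻¹) = x * ((x⁻¹ * r * x⁻¹⁻¹) * w) * x⁻¹ := by group
      _ = x * (r * w) * x⁻¹ := by rw [h2]
      _ = x * (w * r) * x⁻¹ := by rw [hw.2 r hr]
      _ = x * (w * (x⁻¹ * r * x⁻¹⁻¹)) * x⁻¹ := by rw [h2]
      _ = _ := by group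
  -- `Z = R ⊓ W`; elements acting trivially on `W` modulo `Z`
  have hZQ : ∀ q ∈ Q, ∀ w ∈ W, q * w * q⁻¹ * w⁻¹ ∈ R ⊓ W := by
    intro q hq w hw
    have hqR : ∀ q' ∈ Q, ∀ r ∈ R, q' * r * q'⁻¹ ∈ R := fun q' hq' r hr =>
      ⟨hOn.conj_mem r hr.1 q', L.mul_mem (L.mul_mem (hQL hq') hr.2) (L.inv_mem (hQL hq'))⟩
    have h1 : q * w * q⁻¹ ∈ W := by
      refine ⟨hOn.conj_mem w hw.1 q, fun r hr => ?_⟩
      have h2 := hw.2 _ (hqR q⁻¹ (Q.inv_mem hq) r hr)
      calc r * (q * w * q⁻¹) = q * ((q⁻¹ * r * q⁻¹⁻¹) * w) * q⁻¹ := by group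
        _ = q * (w * (q⁻¹ * r * q⁻¹⁻¹)) * q⁻¹ := by rw [h2]
        _ = _ := by group
    have h3 : q * w * q⁻¹ * w⁻¹ ∈ W := W.mul_mem h1 (W.inv_mem hw)
    refine ⟨⟨h3.1, hQL ?_⟩, h3⟩
    have h4 : w * q⁻¹ * w⁻¹ ∈ Q := (Subgroup.mem_normalizer_iff.1 (hQn (hOT hw.1)) _).1 (Q.inv_mem hq)
    simpa [mul_assoc] using Q.mul_mem hq h4
  have hRX : ∀ x ∈ X, ∀ r ∈ R, x * r * x⁻¹ = r := fun x hx r hr => by
    rw [← hXOL x hx r (hRO hr), mul_inv_cancel_right]
  let Y : Subgroup G :=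
    { carrier := {g | g ∈ X ∧ ∀ w ∈ W, g * w * g⁻¹ * w⁻¹ ∈ R ⊓ W}
      one_mem' := ⟨X.one_mem, fun w _ => by simpa using (R ⊓ W).one_mem⟩
      mul_mem' := by
        rintro a b ⟨ha, ha'⟩ ⟨hb, hb'⟩
        refine ⟨X.mul_mem ha hb, fun w hw => ?_⟩
        have h1 := hb' w hw
        have h2 := ha' w hw
        have e : a * b * w * (a * b)⁻¹ * w⁻¹ = (a * (b * w * b⁻¹ * w⁻¹) * a⁻¹) * (a * w * a⁻¹ * w⁻¹) := by group
        rw [e, hRX a ha _ h1.1]
        exact (R ⊓ W).mul_mem h1 h2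
      inv_mem' := by
        rintro a ⟨ha, ha'⟩
        refine ⟨X.inv_mem ha, fun w hw => ?_⟩
        have h1 := ha' w hw
        have e : a⁻¹ * w * a⁻¹⁻¹ * w⁻¹ = a⁻¹ * (a * w * a⁻¹ * w⁻¹)⁻¹ * a⁻¹⁻¹ := by group
        rw [e, hRX a⁻¹ (X.inv_mem ha) _ ((R ⊓ W).inv_mem h1).1]
        exact (R ⊓ W).inv_mem h1 }
  have hQXY : ⁅Q, X⁆ ≤ Y := by
    rw [Subgroup.commutator_le]
    intro q hq x hx
    refine ⟨Subgroup.le_normalizer_iff_commutator_le_right.1 (hQL.trans hLX)
      (Subgroup.commutator_mem_commutator hq hx), fun w hw => ?_⟩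
    -- both sides agree modulo `R ⊓ W`, which is centralized by `X` and `W`
    set c := q * w * q⁻¹ * w⁻¹ with hc
    have hcm : c ∈ R ⊓ W := hZQ q hq w hw
    set w' := x⁻¹ * w * x with hw'
    have hw'W : w' ∈ W := by
      have := hXW x⁻¹ (X.inv_mem hx) w hw
      simpa using this
    set d := q⁻¹ * w' * q⁻¹⁻¹ * w'⁻¹ with hd
    have hdm : d ∈ R ⊓ W := hZQ q⁻¹ (Q.inv_mem hq) w' hw'W
    have hqd : q * d * q⁻¹ ∈ R ⊓ W := by
      have h0 := hZQ q hq d hdm.2
      have := (R ⊓ W).mul_mem h0 hdm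
      simpa [mul_assoc] using this
    have e : ⁅q, x⁆ * w * ⁅q, x⁆⁻¹ * w⁻¹ =
        (q * (x * d * x⁻¹) * q⁻¹) * (q * (x * w' * x⁻¹) * q⁻¹) * w⁻¹ := by
      simp only [hd, hw', commutatorElement_def]; group
    rw [e, hRX x hx d hdm.1, show x * w' * x⁻¹ = w by rw [hw']; group, mul_assoc]
    exact (R ⊓ W).mul_mem hqd hcm
  have hQXp : IsPGroup p (⁅Q, X⁆ : Subgroup G) := by
    refine isPGroup_of_coprime fun y hy hyc => eq_one_of_centralizes_core hG hyc ?_
    obtain ⟨hyX, hyW⟩ := hQXY hy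
    refine Cfsg.Agent.CoprimeAct.le_centralizer_of_axb (R := R) hOp hyc (by rw [Subgroup.normalizer_eq_top]; trivial)
      inf_le_left (fun r hr => Subgroup.mem_centralizer_singleton_iff.2 (hXOL y hyX r (hRO hr))) ?_
    intro w hw
    set c := y * w * y⁻¹ * w⁻¹ with hc
    have hcm : c ∈ R ⊓ W := hyW w hw
    have hcy : y * c * y⁻¹ = c := hRX y hyX c hcm.1
    have hpow : ∀ k : ℕ, y ^ k * w * (y ^ k)⁻¹ = c ^ k * w := by
      intro k
      induction k with
      | zero => simp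
      | succ k ih =>
        calc y ^ (k + 1) * w * (y ^ (k + 1))⁻¹ = y * (y ^ k * w * (y ^ k)⁻¹) * y⁻¹ := by rw [pow_succ']; group
          _ = (y * c * y⁻¹) ^ k * (y * w * y⁻¹) := by rw [ih, conj_pow]; group
          _ = c ^ k * (c * w) := by rw [hcy, hc]; group
          _ = c ^ (k + 1) * w := by rw [pow_succ]; group
    have h1 := hpow (orderOf y)
    simp only [pow_orderOf_eq_one, one_mul, inv_one, mul_one] at h1
    obtain ⟨a, ha⟩ := hOp ⟨c, hcm.1.1⟩
    have hc1 : c = 1 := coe_eq_one_of_pow (congrArg Subtype.val ha) (right_eq_mul.1 h1) hyc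
    refine Subgroup.mem_centralizer_singleton_iff.2 ?_
    rw [hc, mul_inv_eq_one, mul_inv_eq_iff_eq_mul] at hc1
    exact hc1.symm
  -- `[Q, X]` lies in the p-core of `L`
  have hQXX : ⁅Q, X⁆ ≤ X := Subgroup.le_normalizer_iff_commutator_le_right.1 (hQL.trans hLX)
  have hQXOL : ⁅Q, X⁆ ≤ OL := by
    have hsub : (⁅Q, X⁆.subgroupOf L).IsSubnormal := by
      have h1 : ((⁅Q, X⁆.subgroupOf L).subgroupOf (X.subgroupOf L)).Normal := by
        refine (Subgroup.normal_subgroupOf_iff_le_normalizer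
          (fun y hy => hQXX hy : ⁅Q, X⁆.subgroupOf L ≤ X.subgroupOf L)).2 ?_
        rintro ⟨g, hgL⟩ hg
        have hgn : g ∈ Subgroup.normalizer ((⁅Q, X⁆ : Subgroup G) : Set G) := Subgroup.normalizer_commutator_ge_right Q X hg
        rw [Subgroup.mem_normalizer_iff]
        exact fun h => Subgroup.mem_normalizer_iff.1 hgn h.1
      exact Subgroup.IsSubnormal.step _ _ (Subgroup.comap_mono hQXX)
        ((Subgroup.normal_subgroupOf_iff_le_normalizer hXL).2 hLX).isSubnormal h1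
    intro g hg
    refine ⟨⟨g, hXL (hQXX hg)⟩, Cfsg.Agent.Solv.le_pCore_of_isSubnormal hsub
      (hQXp.of_equiv (Subgroup.subgroupOfEquivOfLe (hQXX.trans hXL)).symm) hg, rfl⟩
  -- conclude
  have hXp : IsPGroup p (Subgroup.centralizer (pCore p L : Set L)) := by
    refine isPGroup_of_coprime fun x hx hxc => ?_
    by_contra hne
    have hne' : orderOf x ≠ 1 := fun h => hne (orderOf_eq_one_iff.1 h)
    obtain ⟨r, hr, hrd⟩ := Nat.exists_prime_and_dvd hne'
    have := Fact.mk hr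
    set u := (x : G) ^ (orderOf x / r) with hu
    have hou : orderOf u = r := by
      rw [hu, ← Subgroup.orderOf_coe x]
      exact orderOf_pow_orderOf_div (orderOf_pos _).ne' (by rwa [Subgroup.orderOf_coe])
    have hrp : r ≠ p := by
      rintro rfl
      exact hr.ne_one (Nat.eq_one_of_dvd_coprimes hxc hrd dvd_rfl)
    have huX : u ∈ X := X.pow_mem ⟨x, hx, rfl⟩ _
    have hA : IsPGroup r (Subgroup.zpowers u) :=
      IsPGroup.iff_card.2 ⟨1, by rw [Nat.card_zpowers, hou, pow_one]⟩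
    set P := Q ⊔ OL with hP
    have hPp : IsPGroup p P := IsPGroup.to_sup_of_normal_right' (T.2.to_le hQT) hOLp (hQL.trans hLOL)
    have hPr : ¬ r ∣ Nat.card P := by
      obtain ⟨k, hk⟩ := IsPGroup.iff_card.1 hPp
      intro h
      rw [hk] at h
      exact hrp ((Nat.prime_dvd_prime_iff_eq hr Fact.out).1 (hr.dvd_of_dvd_pow h))
    have hPA : ∀ g ∈ P, ⁅g, u⁆ ∈ OL := by
      intro g hg
      have hg' : g ∈ ((Q ⊔ OL : Subgroup G) : Set G) := hg
      rw [Subgroup.coe_mul_of_left_le_normalizer_right Q OL (hQL.trans hLOL)] at hg'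
      obtain ⟨q, hq, o, ho, rfl⟩ := hg'
      have hou' : o * u * o⁻¹ = u := by rw [hXOL u huX o ho, mul_inv_cancel_right]
      have e : ⁅q * o, u⁆ = ⁅q, u⁆ := by
        simp only [commutatorElement_def]
        calc q * o * u * (q * o)⁻¹ * u⁻¹ = q * (o * u * o⁻¹) * q⁻¹ * u⁻¹ := by group
          _ = _ := by rw [hou']
      rw [e]
      exact hQXOL (Subgroup.commutator_mem_commutator hq huX)
    have hPA' : ⁅P, Subgroup.zpowers u⁆ ≤ P := by
      rw [← Subgroup.le_normalizer_iff_commutator_le_left, Subgroup.zpowers_le,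
        Subgroup.mem_normalizer_iff_map_conj_eq]
      refine Subgroup.eq_of_le_of_card_ge ?_
        (Nat.card_congr (Subgroup.equivMapOfInjective _ _ (MulAut.conj u).injective).toEquiv).le
      rintro _ ⟨g, hg, rfl⟩
      have h1 := P.mul_mem (P.inv_mem (Subgroup.mem_sup_right (hPA g hg) : ⁅g, u⁆ ∈ P)) hg
      show u * g * u⁻¹ ∈ P
      simpa [commutatorElement_def, mul_assoc] using h1
    have hle : ⁅P, Subgroup.zpowers u⁆ ≤ OL := by
      rw [Subgroup.commutator_le]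
      intro g hg v hv
      obtain ⟨k, rfl⟩ := Subgroup.mem_zpowers_iff.1 hv
      induction k using Int.induction_on generalizing g with
      | zero => simp
      | succ i ih =>
        have e : ⁅g, u ^ ((i : ℤ) + 1)⁆ = ⁅g, u ^ (i : ℤ)⁆ * (u ^ (i : ℤ) * ⁅g, u⁆ * (u ^ (i : ℤ))⁻¹) := by
          rw [zpow_add_one]; simp only [commutatorElement_def]; group
        rw [e, ← hXOL _ (X.zpow_mem huX _) _ (hPA g hg), mul_inv_cancel_right]
        exact OL.mul_mem (ih g hg (Subgroup.mem_zpowers_iff.2 ⟨_, rfl⟩)) (hPA g hg)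
      | pred i ih =>
        have h1 : ⁅g, u⁻¹⁆ ∈ OL := by
          have e : ⁅g, u⁻¹⁆ = u⁻¹ * ⁅g, u⁆⁻¹ * u⁻¹⁻¹ := by simp only [commutatorElement_def]; group
          rw [e, ← hXOL _ (X.inv_mem huX) _ (OL.inv_mem (hPA g hg)), mul_inv_cancel_right]
          exact OL.inv_mem (hPA g hg)
        have e : ⁅g, u ^ (-(i : ℤ) - 1)⁆ = ⁅g, u ^ (-(i : ℤ))⁆ * (u ^ (-(i : ℤ)) * ⁅g, u⁻¹⁆ * (u ^ (-(i : ℤ)))⁻¹) := by
          rw [zpow_sub_one]; simp only [commutatorElement_def]; group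
        rw [e, ← hXOL _ (X.zpow_mem huX _) _ h1, mul_inv_cancel_right]
        exact OL.mul_mem (ih g hg (Subgroup.mem_zpowers_iff.2 ⟨_, rfl⟩)) h1
    have hbot : ⁅P, Subgroup.zpowers u⁆ = ⊥ := by
      rw [← Cfsg.Agent.CoprimeAct.commutator_commutator_eq hA hPr
        (Subgroup.le_normalizer_iff_commutator_le_left.2 hPA'), eq_bot_iff, Subgroup.commutator_le]
      intro o ho v hv
      obtain ⟨k, rfl⟩ := Subgroup.mem_zpowers_iff.1 hv
      rw [Subgroup.mem_bot, commutatorElement_eq_one_iff_mul_comm]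
      exact hXOL _ (X.zpow_mem huX k) o (hle ho)
    have huQ : u ∈ Q := hCQ fun q hq =>
      (commutatorElement_eq_one_iff_mul_comm.1 (Subgroup.mem_bot.1 (hbot ▸
        Subgroup.commutator_mem_commutator (Subgroup.mem_sup_left hq : q ∈ P) (Subgroup.mem_zpowers u))))
    obtain ⟨a, ha⟩ := (T.2.to_le hQT) ⟨u, huQ⟩
    have := orderOf_dvd_of_pow_eq_one (congrArg Subtype.val ha : u ^ p ^ a = 1)
    rw [hou] at this
    exact hrp ((Nat.prime_dvd_prime_iff_eq hr Fact.out).1 (hr.dvd_of_dvd_pow this))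
  exact Cfsg.Agent.Solv.le_pCore hXn hXp

end Cfsg.Agent.Even.CharP
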