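import Cfsg.Prelude.Def_BaumannBlocks
import Cfsg.Prelude.Def_PLocal
import Mathlib

set_option autoImplicit false
set_option maxHeartbeats 400000

/-! Chermak–Delgado measure and centrally large subgroups. -/

namespace Cfsg.Agent.Even.CD

open scoped Pointwise
open Cfsg

variable {G : Type*} [Group G] [Finite G]

omit [Finite G] in
theorem card_set_mul (U V : Subgroup G) :
      ((U : Set G) * (V : Set G)).ncard * Nat.card (U ⊓ V : Subgroup G) = Nat.card U * Nat.card V := by
  rw [← Nat.card_coe_set_eq, ← Nat.card_prod, ← Nat.card_prod]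
  have hex : ∀ t : ↥((U : Set G) * (V : Set G)), ∃ u : U, ∃ v : V, (u : G) * v = t.1 := by
    rintro ⟨_, u, hu, v, hv, rfl⟩
    exact ⟨⟨u, hu⟩, ⟨v, hv⟩, rfl⟩
  choose fu fv hf using hex
  refine Nat.card_congr (Equiv.ofBijective (fun p => (⟨(fu p.1 : G) * p.2, U.mul_mem (fu p.1).2 p.2.2.1⟩,
    ⟨(p.2 : G)⁻¹ * fv p.1, V.mul_mem (V.inv_mem p.2.2.2) (fv p.1).2⟩)) ⟨?_, ?_⟩)
  · intro p q e
    simp only [Prod.mk.injEq, Subtype.mk.injEq] at e
    have hp : (p.1 : G) = q.1 := by
      rw [← hf p.1, ← hf q.1]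
      calc (fu p.1 : G) * fv p.1 = ((fu p.1 : G) * p.2) * ((p.2 : G)⁻¹ * fv p.1) := by group
        _ = (fu q.1 : G) * fv q.1 := by rw [e.1, e.2]; group
    have hp' : p.1 = q.1 := Subtype.ext hp
    refine Prod.ext hp' (Subtype.ext ?_)
    rw [hp'] at e
    exact mul_left_cancel e.1
  · rintro ⟨⟨u, hu⟩, ⟨v, hv⟩⟩
    refine ⟨(⟨u * v, ⟨u, hu, v, hv, rfl⟩⟩, ⟨(fu ⟨u * v, ⟨u, hu, v, hv, rfl⟩⟩ : G)⁻¹ * u, ?_⟩), ?_⟩
    · refine ⟨U.mul_mem (U.inv_mem (fu _).2) hu, ?_⟩
      have h' := hf ⟨u * v, ⟨u, hu, v, hv, rfl⟩⟩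
      have : (fu ⟨u * v, ⟨u, hu, v, hv, rfl⟩⟩ : G)⁻¹ * u = fv ⟨u * v, ⟨u, hu, v, hv, rfl⟩⟩ * v⁻¹ := by
        rw [← eq_inv_mul_iff_mul_eq] at h'
        rw [h']; group
      rw [this]
      exact V.mul_mem (fv _).2 (V.inv_mem hv)
    · refine Prod.ext (Subtype.ext ?_) (Subtype.ext ?_)
      · simp
      · have h' := hf ⟨u * v, ⟨u, hu, v, hv, rfl⟩⟩
        rw [← eq_inv_mul_iff_mul_eq] at h'
        simp only [h']
        group

omit [Finite G] in
theorem mul_subset_sup (U V : Subgroup G) : (U : Set G) * (V : Set G) ⊆ ((U ⊔ V : Subgroup G) : Set G) := by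
  rintro _ ⟨u, hu, v, hv, rfl⟩
  exact mul_mem (Subgroup.mem_sup_left hu) (Subgroup.mem_sup_right hv)

omit [Finite G] in
theorem centralizer_sup (U V : Subgroup G) : Subgroup.centralizer ((U ⊔ V : Subgroup G) : Set G) =
    Subgroup.centralizer (U : Set G) ⊓ Subgroup.centralizer (V : Set G) := by
  refine le_antisymm (le_inf (Subgroup.centralizer_le (SetLike.coe_subset_coe.2 le_sup_left))
    (Subgroup.centralizer_le (SetLike.coe_subset_coe.2 le_sup_right))) ?_
  rw [Subgroup.le_centralizer_iff]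
  exact sup_le (Subgroup.le_centralizer_iff.1 inf_le_left) (Subgroup.le_centralizer_iff.1 inf_le_right)

omit [Finite G] in
theorem centralizer_mul_le (U V : Subgroup G) :
    (Subgroup.centralizer (U : Set G) : Set G) * (Subgroup.centralizer (V : Set G) : Set G) ⊆
      (Subgroup.centralizer ((U ⊓ V : Subgroup G) : Set G) : Set G) := by
  rintro _ ⟨u, hu, v, hv, rfl⟩
  exact mul_mem (Subgroup.centralizer_le (SetLike.coe_subset_coe.2 inf_le_left) hu)
    (Subgroup.centralizer_le (SetLike.coe_subset_coe.2 inf_le_right) hv)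

theorem m_le (R : Subgroup G) :
    Nat.card R * Nat.card (Subgroup.centralizer (R : Set G)) ≤ maxCentralizerProduct G := by
  haveI : Finite (Subgroup G) := Finite.of_injective _ SetLike.coe_injective
  exact le_csSup (Set.Finite.bddAbove (Set.finite_range fun R : Subgroup G =>
    Nat.card R * Nat.card (Subgroup.centralizer (R : Set G)))) ⟨R, rfl⟩

theorem exists_large : ∃ R : Subgroup G, IsCentralizerLarge R := by
  haveI : Finite (Subgroup G) := Finite.of_injective _ SetLike.coe_injective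
  exact Nat.sSup_mem (Set.range_nonempty fun R : Subgroup G =>
    Nat.card R * Nat.card (Subgroup.centralizer (R : Set G))) (Set.finite_range _).bddAbove

omit [Finite G] in
theorem card_center_eq (R : Subgroup G) :
    Nat.card (Subgroup.center R) = Nat.card (R ⊓ Subgroup.centralizer (R : Set G) : Subgroup G) := by
  refine Nat.card_congr
    { toFun := fun z => ⟨(z.1 : G), z.1.2, fun r hr =>
        congrArg Subtype.val (Subgroup.mem_center_iff.1 z.2 ⟨r, hr⟩)⟩
      invFun := fun z => ⟨⟨z.1, z.2.1⟩, Subgroup.mem_center_iff.2 fun r => Subtype.ext (z.2.2 r.1 r.2)⟩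
      left_inv := fun z => rfl
      right_inv := fun z => rfl }

theorem z_le (R : Subgroup G) : Nat.card R * Nat.card (Subgroup.center R) ≤ maxCentralProduct G := by
  haveI : Finite (Subgroup G) := Finite.of_injective _ SetLike.coe_injective
  exact le_csSup (Set.Finite.bddAbove (Set.finite_range fun R : Subgroup G =>
    Nat.card R * Nat.card (Subgroup.center R))) ⟨R, rfl⟩

theorem large_pair {Q R : Subgroup G} (hQ : IsCentralizerLarge Q) (hR : IsCentralizerLarge R) :
    ((Q ⊔ R : Subgroup G) : Set G) = (Q : Set G) * (R : Set G) ∧ IsCentralizerLarge (Q ⊔ R) ∧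
      IsCentralizerLarge (Q ⊓ R) ∧
      ((Subgroup.centralizer (Q : Set G) ⊔ Subgroup.centralizer (R : Set G) : Subgroup G) : Set G) =
        (Subgroup.centralizer (Q : Set G) : Set G) * (Subgroup.centralizer (R : Set G) : Set G) ∧
      Subgroup.centralizer ((Q ⊓ R : Subgroup G) : Set G) =
        Subgroup.centralizer (Q : Set G) ⊔ Subgroup.centralizer (R : Set G) := by
  unfold IsCentralizerLarge at *
  set M := maxCentralizerProduct G
  set CQ := Subgroup.centralizer (Q : Set G)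
  set CR := Subgroup.centralizer (R : Set G)
  set a := ((Q : Set G) * (R : Set G)).ncard
  set b := ((CQ : Set G) * (CR : Set G)).ncard
  have ha : a ≤ Nat.card (Q ⊔ R : Subgroup G) := by
    rw [← SetLike.coe_sort_coe, Nat.card_coe_set_eq]
    exact Set.ncard_le_ncard (mul_subset_sup Q R) (Set.toFinite _)
  have hb : b ≤ Nat.card (Subgroup.centralizer ((Q ⊓ R : Subgroup G) : Set G)) := by
    rw [← SetLike.coe_sort_coe, Nat.card_coe_set_eq]
    exact Set.ncard_le_ncard (centralizer_mul_le Q R) (Set.toFinite _)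
  have hx : Nat.card (Subgroup.centralizer ((Q ⊔ R : Subgroup G) : Set G)) = Nat.card (CQ ⊓ CR : Subgroup G) := by
    rw [centralizer_sup]
  have e1 := card_set_mul Q R
  have e2 := card_set_mul CQ CR
  set c := Nat.card (Q ⊓ R : Subgroup G)
  set d := Nat.card (CQ ⊓ CR : Subgroup G)
  have hM : M * M = (a * d) * (c * b) := by
    calc M * M = (Nat.card Q * Nat.card CQ) * (Nat.card R * Nat.card CR) := by rw [hQ, hR]
      _ = (Nat.card Q * Nat.card R) * (Nat.card CQ * Nat.card CR) := by ring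
      _ = (a * c) * (b * d) := by rw [e1, e2]
      _ = _ := by ring
  have hMpos : 0 < M := by rw [← hQ]; exact Nat.mul_pos Nat.card_pos Nat.card_pos
  have h1 : Nat.card (Q ⊔ R : Subgroup G) * d ≤ M := by rw [← hx]; exact m_le _
  have h2 : c * Nat.card (Subgroup.centralizer ((Q ⊓ R : Subgroup G) : Set G)) ≤ M := m_le _
  have h3 : a * d ≤ M := le_trans (Nat.mul_le_mul_right d ha) h1
  have h4 : c * b ≤ M := le_trans (Nat.mul_le_mul_left c hb) h2
  have h5 : a * d = M ∧ c * b = M :=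
    ⟨le_antisymm h3 (Nat.le_of_mul_le_mul_right (hM.le.trans (Nat.mul_le_mul_left _ h4)) hMpos),
      le_antisymm h4 (Nat.le_of_mul_le_mul_left (hM.le.trans (Nat.mul_le_mul_right _ h3)) hMpos)⟩
  have hd : 0 < d := Nat.card_pos
  have hc : 0 < c := Nat.card_pos
  have ha' : a = Nat.card (Q ⊔ R : Subgroup G) :=
    le_antisymm ha (Nat.le_of_mul_le_mul_right (h1.trans h5.1.ge) hd)
  have hb' : b = Nat.card (Subgroup.centralizer ((Q ⊓ R : Subgroup G) : Set G)) :=
    le_antisymm hb (Nat.le_of_mul_le_mul_left (h2.trans h5.2.ge) hc)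
  have hs1 : (Q : Set G) * (R : Set G) = ((Q ⊔ R : Subgroup G) : Set G) :=
    Set.eq_of_subset_of_ncard_le (mul_subset_sup Q R) (by
      rw [← Nat.card_coe_set_eq, SetLike.coe_sort_coe, ← ha']) (Set.toFinite _)
  have hs2 : (CQ : Set G) * (CR : Set G) = (Subgroup.centralizer ((Q ⊓ R : Subgroup G) : Set G) : Set G) :=
    Set.eq_of_subset_of_ncard_le (centralizer_mul_le Q R) (by
      rw [← Nat.card_coe_set_eq, SetLike.coe_sort_coe, ← hb']) (Set.toFinite _)
  have hs3 : Subgroup.centralizer ((Q ⊓ R : Subgroup G) : Set G) = CQ ⊔ CR := by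
    refine le_antisymm ?_ (sup_le (Subgroup.centralizer_le (SetLike.coe_subset_coe.2 inf_le_left))
      (Subgroup.centralizer_le (SetLike.coe_subset_coe.2 inf_le_right)))
    intro x hx'
    have : x ∈ (CQ : Set G) * (CR : Set G) := by rw [hs2]; exact hx'
    exact mul_subset_sup CQ CR this
  refine ⟨hs1.symm, ?_, ?_, ?_, hs3⟩
  · rw [hx, ← ha', h5.1]
  · rw [← hb', h5.2]
  · rw [hs2, hs3]

theorem large_centralizer {Q : Subgroup G} (hQ : IsCentralizerLarge Q) :
    IsCentralizerLarge (Subgroup.centralizer (Q : Set G)) ∧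
      Q = Subgroup.centralizer ((Subgroup.centralizer (Q : Set G) : Subgroup G) : Set G) := by
  unfold IsCentralizerLarge at *
  set CQ := Subgroup.centralizer (Q : Set G)
  have hle : Q ≤ Subgroup.centralizer (CQ : Set G) := Subgroup.le_centralizer_iff.2 le_rfl
  have h1 := m_le CQ
  have h2 := Subgroup.card_le_of_le hle
  have hpos : 0 < Nat.card CQ := Nat.card_pos
  have h3 : Nat.card (Subgroup.centralizer (CQ : Set G)) ≤ Nat.card Q :=
    Nat.le_of_mul_le_mul_left (h1.trans (by rw [← hQ, mul_comm])) hpos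
  refine ⟨?_, Subgroup.eq_of_le_of_card_ge hle h3⟩
  rw [le_antisymm h3 h2, mul_comm, hQ]

theorem f_eq : maxCentralProduct G = maxCentralizerProduct G := by
  refine le_antisymm ?_ ?_
  · refine csSup_le' ?_
    rintro k ⟨R, rfl⟩
    refine le_trans (Nat.mul_le_mul_left _ ?_) (m_le R)
    rw [card_center_eq]; exact Subgroup.card_le_of_le inf_le_right
  · obtain ⟨Q, hQ⟩ := exists_large (G := G)
    obtain ⟨h1, h2⟩ := large_centralizer hQ
    obtain ⟨-, h3, -⟩ := large_pair hQ h1
    rw [← h3]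
    refine le_trans (Nat.mul_le_mul_left _ ?_) (z_le _)
    rw [card_center_eq]
    refine Subgroup.card_le_of_le (le_inf ?_ le_rfl)
    rw [centralizer_sup]
    exact inf_le_left.trans le_sup_right

theorem centrallyLarge_iff {Q : Subgroup G} :
    IsCentrallyLarge Q ↔ IsCentralizerLarge Q ∧ Subgroup.centralizer (Q : Set G) ≤ Q := by
  unfold IsCentrallyLarge IsCentralizerLarge
  rw [f_eq, card_center_eq]
  constructor
  · intro h
    have h1 : Nat.card (Q ⊓ Subgroup.centralizer (Q : Set G) : Subgroup G) ≤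
        Nat.card (Subgroup.centralizer (Q : Set G)) := Subgroup.card_le_of_le inf_le_right
    have h2 : Nat.card Q * Nat.card (Subgroup.centralizer (Q : Set G)) = maxCentralizerProduct G :=
      le_antisymm (m_le Q) (h ▸ Nat.mul_le_mul_left _ h1)
    refine ⟨h2, ?_⟩
    have h3 := Nat.eq_of_mul_eq_mul_left Nat.card_pos (h.trans h2.symm)
    exact inf_eq_right.1 (Subgroup.eq_of_le_of_card_ge inf_le_right h3.ge)
  · rintro ⟨h1, h2⟩
    rw [inf_eq_right.2 h2, h1]

theorem centrallyLarge_pair {Q R : Subgroup G} (hQ : IsCentrallyLarge Q) (hR : IsCentrallyLarge R) :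
    ((Q ⊔ R : Subgroup G) : Set G) = (Q : Set G) * (R : Set G) ∧ IsCentrallyLarge (Q ⊔ R) := by
  obtain ⟨hQ1, hQ2⟩ := centrallyLarge_iff.1 hQ
  obtain ⟨h1, h2, -⟩ := large_pair hQ1 (centrallyLarge_iff.1 hR).1
  refine ⟨h1, centrallyLarge_iff.2 ⟨h2, ?_⟩⟩
  rw [centralizer_sup]
  exact inf_le_left.trans (hQ2.trans le_sup_left)

theorem exists_centrallyLarge : ∃ R : Subgroup G, IsCentrallyLarge R := by
  obtain ⟨Q, hQ⟩ := exists_large (G := G)
  obtain ⟨h1, h2⟩ := large_centralizer hQ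
  obtain ⟨-, h3, -⟩ := large_pair hQ h1
  refine ⟨_, centrallyLarge_iff.2 ⟨h3, ?_⟩⟩
  rw [centralizer_sup]
  exact inf_le_left.trans le_sup_right

theorem centrallyLarge_sSup (A : Set (Subgroup G)) (hA : ∀ R ∈ A, IsCentrallyLarge R) (hne : A.Nonempty) :
    IsCentrallyLarge (sSup A) := by
  haveI : Finite (Subgroup G) := Finite.of_injective _ SetLike.coe_injective
  revert hA hne
  refine Set.Finite.induction_on (motive := fun A _ => (∀ R ∈ A, IsCentrallyLarge R) → A.Nonempty →
    IsCentrallyLarge (sSup A)) A A.toFinite (fun _ h => absurd h Set.not_nonempty_empty) ?_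
  intro a s _ _ ih hA _
  rw [sSup_insert]
  rcases s.eq_empty_or_nonempty with rfl | hs
  · rw [sSup_empty, sup_bot_eq]; exact hA a (Set.mem_insert _ _)
  · exact (centrallyLarge_pair (hA a (Set.mem_insert _ _)) (ih (fun R hR => hA R (Set.mem_insert_of_mem _ hR)) hs)).2

theorem exists_minimal : ∃ R : Subgroup G, IsMinimalCentrallyLarge R := by
  haveI : Finite (Subgroup G) := Finite.of_injective _ SetLike.coe_injective
  obtain ⟨R, hR⟩ := (Set.toFinite {R : Subgroup G | IsCentrallyLarge R}).exists_minimal exists_centrallyLarge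
  exact ⟨R, hR.1, fun T hle hT => le_antisymm hle (hR.2 hT hle)⟩

theorem centralizer_maxAbelian {A : Subgroup G} (hA : A ∈ maxAbelianSubgroups G) :
    Subgroup.centralizer (A : Set G) = A := by
  refine le_antisymm (fun c hc => ?_) (Subgroup.le_centralizer_iff_isMulCommutative.2 hA.1)
  have hset : IsMulCommutative (Subgroup.closure ((A : Set G) ∪ {c})) := by
    refine Subgroup.isMulCommutative_closure ?_
    rintro x (hx | rfl) y (hy | rfl)
    · exact congrArg Subtype.val (hA.1.is_comm.comm (⟨x, hx⟩ : A) ⟨y, hy⟩)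
    · exact hc x hx
    · exact (hc y hy).symm
    · rfl
  have hle : A ≤ Subgroup.closure ((A : Set G) ∪ {c}) := fun x hx => Subgroup.subset_closure (Or.inl hx)
  rw [Subgroup.eq_of_le_of_card_ge hle (hA.2 _ hset)]
  exact Subgroup.subset_closure (Or.inr rfl)

theorem maxAbelian_spec {Q A : Subgroup G} (hQ : IsCentrallyLarge Q) (hA : A ∈ maxAbelianSubgroups G) :
    ((Q ⊔ A : Subgroup G) : Set G) = (Q : Set G) * (A : Set G) ∧ IsCentrallyLarge (Q ⊔ A) ∧
      (Q ⊔ A) ⊓ Subgroup.centralizer ((Q ⊓ A : Subgroup G) : Set G) =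
        (Q ⊓ Subgroup.centralizer (Q : Set G)) ⊔ A ∧
      (((Q ⊓ Subgroup.centralizer (Q : Set G)) ⊔ A : Subgroup G) : Set G) =
        ((Q ⊓ Subgroup.centralizer (Q : Set G) : Subgroup G) : Set G) * (A : Set G) := by
  obtain ⟨hQ1, hQ2⟩ := centrallyLarge_iff.1 hQ
  have hCA := centralizer_maxAbelian hA
  set CQ := Subgroup.centralizer (Q : Set G) with hCQ
  rw [inf_eq_right.2 hQ2]
  set D := Q ⊓ A
  -- `CQ ⊔ D` is abelian
  have habel : IsMulCommutative (CQ ⊔ D : Subgroup G) := by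
    rw [Subgroup.sup_eq_closure]
    refine Subgroup.isMulCommutative_closure ?_
    rintro x (hx | hx) y (hy | hy)
    · exact hy x (hQ2 hx)
    · exact (hx y hy.1).symm
    · exact hy x hx.1
    · exact congrArg Subtype.val (hA.1.is_comm.comm (⟨x, hx.2⟩ : A) ⟨y, hy.2⟩)
  have hD : CQ ⊓ D = CQ ⊓ A := by
    rw [show D = Q ⊓ A from rfl, ← inf_assoc, inf_eq_left.2 hQ2]
  have hCs : Subgroup.centralizer ((Q ⊔ A : Subgroup G) : Set G) = CQ ⊓ A := by rw [centralizer_sup, hCA]
  set a := ((Q : Set G) * (A : Set G)).ncard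
  set e := ((CQ : Set G) * (D : Set G)).ncard
  have e1 := card_set_mul Q A
  have e2 : e * Nat.card (CQ ⊓ A : Subgroup G) = Nat.card CQ * Nat.card D := by
    rw [← hD]; exact card_set_mul CQ D
  have ha : a ≤ Nat.card (Q ⊔ A : Subgroup G) := by
    rw [← SetLike.coe_sort_coe, Nat.card_coe_set_eq]
    exact Set.ncard_le_ncard (mul_subset_sup Q A) (Set.toFinite _)
  have he : e ≤ Nat.card (CQ ⊔ D : Subgroup G) := by
    rw [← SetLike.coe_sort_coe, Nat.card_coe_set_eq]
    exact Set.ncard_le_ncard (mul_subset_sup CQ D) (Set.toFinite _)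
  have hA2 := hA.2 _ habel
  have hm := m_le (Q ⊔ A)
  rw [hCs] at hm
  have hQ1' : Nat.card Q * Nat.card CQ = maxCentralizerProduct G := hQ1
  set d := Nat.card (CQ ⊓ A : Subgroup G)
  set c := Nat.card (Q ⊓ A : Subgroup G)
  have hd : 0 < d := Nat.card_pos
  have hc : 0 < c := Nat.card_pos
  have hCQpos : 0 < Nat.card CQ := Nat.card_pos
  -- all inequalities are equalities
  have h1 : maxCentralizerProduct G * Nat.card A = a * d * e := by
    have h2 : Nat.card Q * Nat.card CQ * (Nat.card A * c) = a * d * e * c := by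
      calc _ = (Nat.card Q * Nat.card A) * (Nat.card CQ * c) := by ring
        _ = (a * c) * (e * d) := by rw [e1]; exact congrArg _ e2.symm
        _ = _ := by ring
    rw [← mul_assoc, hQ1'] at h2
    exact Nat.eq_of_mul_eq_mul_right hc h2
  have h4 : a * d ≤ maxCentralizerProduct G := le_trans (Nat.mul_le_mul_right d ha) hm
  have h5 : e ≤ Nat.card A := he.trans hA2
  have hApos : 0 < Nat.card A := Nat.card_pos
  have h6 : a * d = maxCentralizerProduct G :=
    le_antisymm h4 (Nat.le_of_mul_le_mul_right (h1.le.trans (Nat.mul_le_mul_left _ h5)) hApos)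
  have h7 : e = Nat.card A := by
    rw [h6] at h1
    refine (Nat.eq_of_mul_eq_mul_left ?_ h1).symm
    rw [← hQ1']; exact Nat.mul_pos Nat.card_pos hCQpos
  have ha' : a = Nat.card (Q ⊔ A : Subgroup G) :=
    le_antisymm ha (Nat.le_of_mul_le_mul_right (hm.trans h6.ge) hd)
  have hs : (Q : Set G) * (A : Set G) = ((Q ⊔ A : Subgroup G) : Set G) :=
    Set.eq_of_subset_of_ncard_le (mul_subset_sup Q A) (by
      rw [← Nat.card_coe_set_eq, SetLike.coe_sort_coe, ← ha']) (Set.toFinite _)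
  have hsD : (CQ : Set G) * (D : Set G) = ((CQ ⊔ D : Subgroup G) : Set G) :=
    Set.eq_of_subset_of_ncard_le (mul_subset_sup CQ D) (by
      rw [← Nat.card_coe_set_eq, SetLike.coe_sort_coe]
      exact hA2.trans h7.ge) (Set.toFinite _)
  have hmax : (CQ ⊔ D) ∈ maxAbelianSubgroups G :=
    ⟨habel, fun B hB => (hA.2 B hB).trans (h7.symm.le.trans he)⟩
  have key : ((Q ⊔ A) ⊓ Subgroup.centralizer (D : Set G) : Subgroup G) ≤ CQ ⊔ A ∧
      ∀ x ∈ (Q ⊔ A) ⊓ Subgroup.centralizer (D : Set G), x ∈ (CQ : Set G) * (A : Set G) := by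
    have h8 : ∀ x ∈ (Q ⊔ A) ⊓ Subgroup.centralizer (D : Set G), x ∈ (CQ : Set G) * (A : Set G) := by
      rintro x ⟨hx, hxD⟩
      have hx' : x ∈ ((Q ⊔ A : Subgroup G) : Set G) := hx
      rw [← hs] at hx'
      obtain ⟨q, hq, a', ha'', rfl⟩ := hx'
      have haD : a' ∈ Subgroup.centralizer (D : Set G) := fun y hy =>
        congrArg Subtype.val (hA.1.is_comm.comm (⟨y, hy.2⟩ : A) ⟨a', ha''⟩)
      have hqD : q ∈ Subgroup.centralizer (D : Set G) := by
        have := Subgroup.mul_mem _ hxD (Subgroup.inv_mem _ haD)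
        simpa using this
      have hqmem : q ∈ CQ ⊔ D := by
        rw [← centralizer_maxAbelian hmax, centralizer_sup]
        exact ⟨fun y hy => (hy q hq).symm, hqD⟩
      have : q ∈ (CQ : Set G) * (D : Set G) := by rw [hsD]; exact hqmem
      obtain ⟨z, hz, w, hw, rfl⟩ := this
      exact ⟨z, hz, w * a', A.mul_mem hw.2 ha'', (mul_assoc _ _ _).symm⟩
    exact ⟨fun x hx => mul_subset_sup CQ A (h8 x hx), h8⟩
  have hge : CQ ⊔ A ≤ (Q ⊔ A) ⊓ Subgroup.centralizer (D : Set G) :=
    sup_le (le_inf (hQ2.trans le_sup_left) (Subgroup.centralizer_le (SetLike.coe_subset_coe.2 inf_le_left)))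
      (le_inf le_sup_right (hCA.symm.le.trans (Subgroup.centralizer_le (SetLike.coe_subset_coe.2 inf_le_right))))
  refine ⟨hs.symm, centrallyLarge_iff.2 ⟨?_, ?_⟩, le_antisymm key.1 hge,
    Set.Subset.antisymm (fun x hx => key.2 x (hge hx)) (mul_subset_sup CQ A)⟩
  · show _ * _ = _
    rw [hCs, ← ha', h6]
  · rw [hCs]; exact inf_le_right.trans le_sup_right

theorem centralizer_center_thompson_le :
    Subgroup.centralizer ((thompsonSubgroupA G ⊓ Subgroup.centralizer (thompsonSubgroupA G : Set G) :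
      Subgroup G) : Set G) ≤ centrallyLargeJoin G := by
  haveI : Finite (Subgroup G) := Finite.of_injective _ SetLike.coe_injective
  have hJ : IsCentrallyLarge (centrallyLargeJoin G) :=
    centrallyLarge_sSup _ (fun R hR => hR) exists_centrallyLarge
  obtain ⟨hJ1, hJ2⟩ := centrallyLarge_iff.1 hJ
  have hAle : ∀ A ∈ maxAbelianSubgroups G, A ≤ centrallyLargeJoin G := fun A hA =>
    le_trans le_sup_right (le_sSup (show IsCentrallyLarge (centrallyLargeJoin G ⊔ A) from
      (maxAbelian_spec hJ hA).2.1))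
  have hTle : thompsonSubgroupA G ≤ centrallyLargeJoin G := sSup_le hAle
  obtain ⟨A, hA⟩ : ∃ A : Subgroup G, A ∈ maxAbelianSubgroups G := by
    obtain ⟨A, hA⟩ := Set.Finite.exists_maximalFor (fun A : Subgroup G => Nat.card A)
      {A : Subgroup G | IsMulCommutative A} (Set.toFinite _)
      ⟨(⊥ : Subgroup G), inferInstanceAs (IsMulCommutative (⊥ : Subgroup G))⟩
    exact ⟨A, hA.1, fun B hB => (le_total (Nat.card A) (Nat.card B)).elim (hA.2 hB) id⟩
  refine le_trans (Subgroup.centralizer_le (SetLike.coe_subset_coe.2 (le_inf ?_ ?_)))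
    (large_centralizer hJ1).2.symm.le
  · exact (((Subgroup.centralizer_le (SetLike.coe_subset_coe.2 (hAle A hA))).trans
      (centralizer_maxAbelian hA).le)).trans (le_sSup hA)
  · exact Subgroup.centralizer_le (SetLike.coe_subset_coe.2 hTle)

theorem minimal_decomp {Q R : Subgroup G} (hQ : IsMinimalCentrallyLarge Q) (hR : IsMinimalCentrallyLarge R) :
    (Q ⊓ R) ⊔ Subgroup.centralizer (Q : Set G) = Q := by
  obtain ⟨hQ1, hQ2⟩ := centrallyLarge_iff.1 hQ.1
  obtain ⟨hR1, hR2⟩ := centrallyLarge_iff.1 hR.1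
  obtain ⟨-, -, hD, h4, h5⟩ := large_pair hQ1 hR1
  obtain ⟨hC, hCC⟩ := large_centralizer hQ1
  obtain ⟨-, hlarge, -⟩ := large_pair hD hC
  refine hQ.2 _ (sup_le inf_le_left hQ2) (centrallyLarge_iff.2 ⟨hlarge, ?_⟩)
  rw [centralizer_sup, ← hCC, h5]
  rintro x ⟨hx, hxQ⟩
  have hx' : x ∈ ((Subgroup.centralizer (Q : Set G) ⊔ Subgroup.centralizer (R : Set G) : Subgroup G) : Set G) := hx
  rw [h4] at hx'
  obtain ⟨z, hz, w, hw, rfl⟩ := hx'
  refine mul_mem (Subgroup.mem_sup_right hz) (Subgroup.mem_sup_left ⟨?_, hR2 hw⟩)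
  exact (Q.mul_mem_cancel_left (hQ2 hz)).1 hxQ

open scoped commutatorElement in
theorem commutator_sup_central {Q D Z : Subgroup G} (h : D ⊔ Z = Q) (hZ : Z ≤ Subgroup.centralizer (Q : Set G)) :
    ⁅Q, Q⁆ = ⁅D, D⁆ := by
  refine le_antisymm ?_ (Subgroup.commutator_mono (h ▸ le_sup_left) (h ▸ le_sup_left))
  rw [Subgroup.commutator_le]
  have key : ∀ x ∈ Q, ∃ d ∈ D, ∃ z ∈ Z, x = d * z := by
    intro x hx
    rw [← h] at hx
    have hn : Z ≤ Subgroup.normalizer (D : Set G) := fun z hz => Subgroup.centralizer_le_normalizer _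
      (Subgroup.centralizer_le (SetLike.coe_subset_coe.2 (h ▸ le_sup_left : D ≤ Q)) (hZ hz))
    have hx' : x ∈ ((D ⊔ Z : Subgroup G) : Set G) := hx
    rw [Subgroup.coe_mul_of_right_le_normalizer_left D Z hn] at hx'
    obtain ⟨d, hd, z, hz, rfl⟩ := hx'
    exact ⟨d, hd, z, hz, rfl⟩
  intro x hx y hy
  obtain ⟨d, hd, z, hz, rfl⟩ := key x hx
  obtain ⟨d', hd', z', hz', rfl⟩ := key y hy
  have hdQ : d ∈ Q := h ▸ Subgroup.mem_sup_left hd
  have hdQ' : d' ∈ Q := h ▸ Subgroup.mem_sup_left hd'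
  have h1 : Commute z (d' * z') := (hZ hz _ hy).symm
  have h2 : Commute z' d := (hZ hz' _ hdQ).symm
  have : ⁅d * z, d' * z'⁆ = ⁅d, d'⁆ := by
    calc ⁅d * z, d' * z'⁆ = d * (z * (d' * z') * z⁻¹) * d⁻¹ * (d' * z')⁻¹ := by
          rw [commutatorElement_def]; group
      _ = d * (d' * z') * d⁻¹ * (d' * z')⁻¹ := by rw [h1.eq, mul_inv_cancel_right]
      _ = d * d' * (z' * d⁻¹) * z'⁻¹ * d'⁻¹ := by group
      _ = d * d' * (d⁻¹ * z') * z'⁻¹ * d'⁻¹ := by rw [(Commute.inv_right h2).eq]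
      _ = ⁅d, d'⁆ := by rw [commutatorElement_def]; group
  rw [this]
  exact Subgroup.commutator_mem_commutator hd hd'

theorem minimal_card {Q R : Subgroup G} (hQ : IsMinimalCentrallyLarge Q) (hR : IsMinimalCentrallyLarge R) :
    Nat.card Q = Nat.card R ∧
      Nat.card (Subgroup.centralizer (Q : Set G)) = Nat.card (Subgroup.centralizer (R : Set G)) := by
  have key : ∀ {Q R : Subgroup G}, IsMinimalCentrallyLarge Q → IsMinimalCentrallyLarge R →
      Nat.card Q * Nat.card (Subgroup.centralizer (Q : Set G) ⊓ Subgroup.centralizer (R : Set G) : Subgroup G) =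
        Nat.card (Q ⊓ R : Subgroup G) * Nat.card (Subgroup.centralizer (Q : Set G)) := by
    intro Q R hQ hR
    have hd := minimal_decomp hQ hR
    have hd' := minimal_decomp hR hQ
    obtain ⟨hQ1, hQ2⟩ := centrallyLarge_iff.1 hQ.1
    obtain ⟨hR1, hR2⟩ := centrallyLarge_iff.1 hR.1
    have hn : Subgroup.centralizer (Q : Set G) ≤ Subgroup.normalizer ((Q ⊓ R : Subgroup G) : Set G) :=
      (Subgroup.centralizer_le (SetLike.coe_subset_coe.2 inf_le_left)).trans (Subgroup.centralizer_le_normalizer _)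
    have h1 := card_set_mul (Q ⊓ R) (Subgroup.centralizer (Q : Set G))
    rw [← Subgroup.coe_mul_of_right_le_normalizer_left _ _ hn, ← Nat.card_coe_set_eq, SetLike.coe_sort_coe, hd] at h1
    have he : (Q ⊓ R) ⊓ Subgroup.centralizer (Q : Set G) =
        Subgroup.centralizer (Q : Set G) ⊓ Subgroup.centralizer (R : Set G) := by
      refine le_antisymm ?_ (le_inf (le_inf (inf_le_left.trans hQ2) (inf_le_right.trans hR2)) inf_le_left)
      rintro x ⟨⟨-, hxR⟩, hxC⟩
      refine ⟨hxC, ?_⟩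
      have : R ≤ Subgroup.centralizer {x} := by
        conv_lhs => rw [← hd']
        refine sup_le (fun y hy => Subgroup.mem_centralizer_singleton_iff.2 ?_)
          (fun y hy => Subgroup.mem_centralizer_singleton_iff.2 ?_)
        · exact hxC y hy.2
        · exact (hy x hxR).symm
      exact fun y hy => Subgroup.mem_centralizer_singleton_iff.1 (this hy)
    rwa [he] at h1
  have e1 := key hQ hR
  have e2 := key hR hQ
  rw [inf_comm R Q, inf_comm (Subgroup.centralizer (R : Set G))] at e2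
  have e3 : Nat.card Q * Nat.card (Subgroup.centralizer (Q : Set G)) =
      Nat.card R * Nat.card (Subgroup.centralizer (R : Set G)) :=
    (centrallyLarge_iff.1 hQ.1).1.trans (centrallyLarge_iff.1 hR.1).1.symm
  set d := Nat.card (Subgroup.centralizer (Q : Set G) ⊓ Subgroup.centralizer (R : Set G) : Subgroup G)
  set c := Nat.card (Q ⊓ R : Subgroup G)
  set q := Nat.card Q
  set r := Nat.card R
  set s := Nat.card (Subgroup.centralizer (Q : Set G))
  set t := Nat.card (Subgroup.centralizer (R : Set G))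
  have hd : 0 < d := Nat.card_pos
  have hc : 0 < c := Nat.card_pos
  have hq : 0 < q := Nat.card_pos
  have hr : 0 < r := Nat.card_pos
  have hqr : q * q = r * r := by
    refine Nat.eq_of_mul_eq_mul_right hd ?_
    calc q * q * d = q * (q * d) := by ring
      _ = c * (q * s) := by rw [e1]; ring
      _ = c * (r * t) := by rw [e3]
      _ = r * (r * d) := by rw [e2]; ring
      _ = r * r * d := by ring
  have hqr' : q = r := Nat.mul_self_inj.1 hqr
  refine ⟨hqr', ?_⟩
  rw [hqr'] at e3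
  exact Nat.eq_of_mul_eq_mul_left hr e3

theorem minimal_spec {Q R : Subgroup G} (hQ : IsMinimalCentrallyLarge Q) (hR : IsMinimalCentrallyLarge R) :
    (Q ⊓ R) ⊔ (Q ⊓ Subgroup.centralizer (Q : Set G)) = Q ∧ ⁅Q, Q⁆ = ⁅R, R⁆ ∧ Nat.card Q = Nat.card R ∧
      Nat.card (Q ⊓ Subgroup.centralizer (Q : Set G) : Subgroup G) =
        Nat.card (R ⊓ Subgroup.centralizer (R : Set G) : Subgroup G) ∧
      (IsMulCommutative Q → ∀ X : Subgroup G, IsMinimalCentrallyLarge X ↔ X ∈ maxAbelianSubgroups G) := by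
  haveI : Finite (Subgroup G) := Finite.of_injective _ SetLike.coe_injective
  obtain ⟨hQ1, hQ2⟩ := centrallyLarge_iff.1 hQ.1
  obtain ⟨hR1, hR2⟩ := centrallyLarge_iff.1 hR.1
  have hcomm : ∀ {X Y : Subgroup G}, IsMinimalCentrallyLarge X → IsMinimalCentrallyLarge Y →
      ⁅X, X⁆ = ⁅Y, Y⁆ := by
    intro X Y hX hY
    rw [commutator_sup_central (minimal_decomp hX hY) le_rfl,
      commutator_sup_central (minimal_decomp hY hX) le_rfl, inf_comm Y X]
  rw [inf_eq_right.2 hQ2, inf_eq_right.2 hR2]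
  refine ⟨minimal_decomp hQ hR, hcomm hQ hR, (minimal_card hQ hR).1, (minimal_card hQ hR).2, fun hab X => ?_⟩
  have hCQ : Subgroup.centralizer (Q : Set G) = Q :=
    le_antisymm hQ2 (Subgroup.le_centralizer_iff_isMulCommutative.2 hab)
  have hQsq : Nat.card Q * Nat.card Q = maxCentralizerProduct G := by
    have h : Nat.card Q * Nat.card (Subgroup.centralizer (Q : Set G)) = maxCentralizerProduct G := hQ1
    rwa [hCQ] at h
  have hmaxcard : ∀ A ∈ maxAbelianSubgroups G, Nat.card A = Nat.card Q ∧ IsCentrallyLarge A := by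
    intro A hA
    have hCA := centralizer_maxAbelian hA
    have h1 := m_le A
    rw [hCA, ← hQsq] at h1
    have h2 : Nat.card A = Nat.card Q := le_antisymm (Nat.mul_self_le_mul_self_iff.1 h1) (hA.2 Q hab)
    refine ⟨h2, centrallyLarge_iff.2 ⟨?_, hCA.le⟩⟩
    show _ * _ = _
    rw [hCA, h2, hQsq]
  obtain ⟨A, hA⟩ : ∃ A : Subgroup G, A ∈ maxAbelianSubgroups G := by
    obtain ⟨A, hA⟩ := Set.Finite.exists_maximalFor (fun A : Subgroup G => Nat.card A)
      {A : Subgroup G | IsMulCommutative A} (Set.toFinite _) ⟨Q, hab⟩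
    exact ⟨A, hA.1, fun B hB => (le_total (Nat.card A) (Nat.card B)).elim (hA.2 hB) id⟩
  have hQmax : Q ∈ maxAbelianSubgroups G := ⟨hab, fun B hB => (hA.2 B hB).trans (hmaxcard A hA).1.le⟩
  constructor
  · intro hX
    have h1 : ⁅X, X⁆ = ⊥ := by
      rw [hcomm hX hQ, Subgroup.commutator_eq_bot_iff_le_centralizer, hCQ]
    refine ⟨Subgroup.le_centralizer_iff_isMulCommutative.1
      (Subgroup.commutator_eq_bot_iff_le_centralizer.1 h1), fun B hB => ?_⟩
    rw [(minimal_card hX hQ).1]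
    exact hQmax.2 B hB
  · intro hX
    obtain ⟨hc, hl⟩ := hmaxcard X hX
    obtain ⟨T, hTX, hT⟩ := (Set.toFinite {T : Subgroup G | IsCentrallyLarge T}).exists_le_minimal hl
    have hTm : IsMinimalCentrallyLarge T := ⟨hT.1, fun U hle hU => le_antisymm hle (hT.2 hU hle)⟩
    have : T = X := Subgroup.eq_of_le_of_card_ge hTX (by rw [hc, (minimal_card hQ hTm).1])
    rwa [← this]

end Cfsg.Agent.Even.CD
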