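import Cfsg.Agent.Coprime.Basic
import Mathlib

set_option autoImplicit false

/-! Coprime commutators contained in commutators of a commuting p-group. -/

namespace Cfsg.Agent.Even.CommContain

variable {G : Type*} [Group G]

/-- Descending series of `P` under `H`. -/
def desc (P H : Subgroup G) : ℕ → Subgroup G
  | 0 => P
  | n + 1 => ⁅desc P H n, H⁆

theorem desc_le (P H : Subgroup G) (h : P ≤ H) : ∀ n, desc P H n ≤ H.lowerCentralSeries n
  | 0 => h
  | n + 1 => by
    rw [Subgroup.lowerCentralSeries_succ]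
    exact Subgroup.commutator_mono (desc_le P H h n) le_rfl

instance desc_normal (P H : Subgroup G) [P.Normal] [H.Normal] : ∀ n, (desc P H n).Normal
  | 0 => (inferInstance : P.Normal)
  | n + 1 => by
    have := desc_normal P H n
    exact Subgroup.commutator_normal _ _

open scoped commutatorElement

/-- Three subgroups, modulo a normal subgroup. -/
theorem three {X Y Z N : Subgroup G} [N.Normal] (h1 : ⁅⁅Y, Z⁆, X⁆ ≤ N) (h2 : ⁅⁅Z, X⁆, Y⁆ ≤ N) :
    ⁅⁅X, Y⁆, Z⁆ ≤ N := by
  have key : ∀ K : Subgroup G, K ≤ N ↔ K.map (QuotientGroup.mk' N) = ⊥ := fun K => by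
    rw [Subgroup.map_eq_bot_iff, QuotientGroup.ker_mk']
  rw [key, Subgroup.map_commutator, Subgroup.map_commutator] at h1 h2 ⊢
  exact Subgroup.commutator_commutator_eq_bot_of_rotate h1 h2

theorem eq_bot_normal {G : Type*} [Group G] [Finite G] {p q : ℕ} [Fact p.Prime] [Fact q.Prime]
    (hpq : q ≠ p) (P A B : Subgroup G) [P.Normal] [(P ⊔ A).Normal] (hP : IsPGroup p P) (hA : IsPGroup p A)
    (hB : IsPGroup q B) (hAB : ⁅A, B⁆ = ⊥) (hcomm : ⁅P, B⁆ ≤ ⁅P, A⁆) : ⁅P, B⁆ = ⊥ := by
  have hq : ¬ q ∣ Nat.card P := by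
    obtain ⟨k, hk⟩ := IsPGroup.iff_card.1 hP
    intro h
    rw [hk] at h
    exact hpq ((Nat.prime_dvd_prime_iff_eq Fact.out Fact.out).1 ((Fact.out : q.Prime).dvd_of_dvd_pow h))
  have hnB : B ≤ Subgroup.normalizer (P : Set G) := by rw [Subgroup.normalizer_eq_top]; exact le_top
  have hXX := Cfsg.Agent.CoprimeAct.commutator_commutator_eq hB hq hnB
  set H := P ⊔ A
  have hPH : P ≤ H := le_sup_left
  have hXP : ⁅P, B⁆ ≤ P := Subgroup.commutator_le_left P B
  have hHB : ⁅H, B⁆ ≤ ⁅P, B⁆ := by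
    rw [Subgroup.commutator_le]
    intro h hh b hb
    have hh' : h ∈ ((P ⊔ A : Subgroup G) : Set G) := hh
    rw [Subgroup.coe_mul_of_right_le_normalizer_left P A (by rw [Subgroup.normalizer_eq_top]; exact le_top)] at hh'
    obtain ⟨x, hx, a, ha, rfl⟩ := hh'
    have : ⁅a, b⁆ = 1 := Subgroup.mem_bot.1 (hAB ▸ Subgroup.commutator_mem_commutator ha hb)
    have hab : a * b * a⁻¹ = b := by
      have h' : a * b * a⁻¹ * b⁻¹ = 1 := this
      exact mul_inv_eq_one.1 h'
    have e : ⁅x * a, b⁆ = ⁅x, b⁆ := by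
      simp only [commutatorElement_def]
      calc x * a * b * (x * a)⁻¹ * b⁻¹ = x * (a * b * a⁻¹) * x⁻¹ * b⁻¹ := by group
        _ = _ := by rw [hab]
    rw [e]
    exact Subgroup.commutator_mem_commutator hx hb
  have hle : ∀ n, ⁅P, B⁆ ≤ desc P H (n + 1) := by
    intro n
    induction n with
    | zero => exact hcomm.trans (Subgroup.commutator_mono le_rfl le_sup_right)
    | succ n ih =>
      have hdn : desc P H n ≤ P := by
        clear ih
        induction n with
        | zero => exact le_rfl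
        | succ m ihm => exact (Subgroup.commutator_mono ihm le_rfl).trans (Subgroup.commutator_le_left P H)
      have : (desc P H (n + 1 + 1)).Normal := desc_normal P H _
      calc ⁅P, B⁆ = ⁅⁅P, B⁆, B⁆ := hXX.symm
        _ ≤ ⁅⁅desc P H n, H⁆, B⁆ := Subgroup.commutator_mono ih le_rfl
        _ ≤ desc P H (n + 1 + 1) := by
          refine three ?_ ?_
          · calc ⁅⁅H, B⁆, desc P H n⁆ ≤ ⁅⁅P, B⁆, H⁆ := Subgroup.commutator_mono hHB (hdn.trans hPH)
              _ ≤ _ := Subgroup.commutator_mono ih le_rfl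
          · calc ⁅⁅B, desc P H n⁆, H⁆ ≤ ⁅⁅P, B⁆, H⁆ := by
                  refine Subgroup.commutator_mono ?_ le_rfl
                  rw [Subgroup.commutator_comm B]
                  exact Subgroup.commutator_mono hdn le_rfl
              _ ≤ _ := Subgroup.commutator_mono ih le_rfl
  have hH : IsPGroup p H := IsPGroup.to_sup_of_normal_left' hP hA (by rw [Subgroup.normalizer_eq_top]; exact le_top)
  obtain ⟨n, hn⟩ := (Subgroup.isNilpotent_iff_lowerCentralSeries H).1 hH.isNilpotent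
  rw [eq_bot_iff]
  calc ⁅P, B⁆ ≤ desc P H (n + 1) := hle n
    _ ≤ H.lowerCentralSeries (n + 1) := desc_le P H hPH _
    _ ≤ H.lowerCentralSeries n := H.lowerCentralSeries_antitone (Nat.le_succ n)
    _ = ⊥ := hn

theorem commutator_eq_bot {G : Type*} [Group G] [Finite G] {p : ℕ} [Fact p.Prime] (P A B : Subgroup G)
    (hP : IsPGroup p P) (hA : IsPGroup p A) (hB : ¬ p ∣ Nat.card B)
    (hnA : A ≤ Subgroup.normalizer (P : Set G)) (hnB : B ≤ Subgroup.normalizer (P : Set G))
    (hAB : ⁅A, B⁆ = ⊥) (hcomm : ⁅P, B⁆ ≤ ⁅P, A⁆) : ⁅P, B⁆ = ⊥ := by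
  rw [Subgroup.commutator_comm, Subgroup.commutator_eq_bot_iff_le_centralizer]
  refine Cfsg.Agent.CoprimeAct.le_of_sylow_le (fun q hq => ?_)
  have := Fact.mk hq
  obtain ⟨Q₀⟩ : Nonempty (Sylow q B) := inferInstance
  refine ⟨Q₀, ?_⟩
  set Q := (Q₀ : Subgroup B).map B.subtype
  have hQB : Q ≤ B := Subgroup.map_subtype_le _
  have hQ : IsPGroup q Q := Q₀.2.map _
  by_cases hqp : q = p
  · subst hqp
    obtain ⟨k, hk⟩ := IsPGroup.iff_card.1 hQ
    rcases Nat.eq_zero_or_pos k with h0 | h0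
    · rw [h0, pow_zero] at hk
      rw [Subgroup.card_eq_one.1 hk]
      exact bot_le
    · exact absurd (((dvd_pow_self q h0.ne').trans hk.symm.dvd).trans (Subgroup.card_dvd_of_le hQB)) hB
  -- work inside `P ⊔ A ⊔ Q`
  set M := P ⊔ A ⊔ Q with hM
  have hPM : P ≤ M := le_sup_left.trans le_sup_left
  have hAM : A ≤ M := le_sup_right.trans le_sup_left
  have hQM : Q ≤ M := le_sup_right
  have hcom : Q ≤ Subgroup.centralizer (A : Set G) :=
    hQB.trans (Subgroup.le_centralizer_iff.1 (Subgroup.commutator_eq_bot_iff_le_centralizer.1 hAB))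
  have hMP : M ≤ Subgroup.normalizer (P : Set G) :=
    sup_le (sup_le Subgroup.le_normalizer hnA) (hQB.trans hnB)
  have h1 : (P.subgroupOf M).Normal := (Subgroup.normal_subgroupOf_iff_le_normalizer hPM).2 hMP
  have h2 : (P.subgroupOf M ⊔ A.subgroupOf M).Normal := by
    rw [← Subgroup.subgroupOf_sup hPM hAM, Subgroup.normal_subgroupOf_iff_le_normalizer le_sup_left]
    refine sup_le Subgroup.le_normalizer (le_trans (le_inf (hQB.trans hnB)
      (hcom.trans (Subgroup.centralizer_le_normalizer _))) ?_)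
    intro g hg
    refine Subgroup.mem_normalizer_iff_map_conj_eq.2 ?_
    rw [Subgroup.map_sup, Subgroup.mem_normalizer_iff_map_conj_eq.1 hg.1,
      Subgroup.mem_normalizer_iff_map_conj_eq.1 hg.2]
  have key : ∀ X Y : Subgroup G, X ≤ M → Y ≤ M →
      (⁅X.subgroupOf M, Y.subgroupOf M⁆).map M.subtype = ⁅X, Y⁆ := by
    intro X Y hX hY
    rw [Subgroup.map_commutator, Subgroup.map_subgroupOf_eq_of_le hX, Subgroup.map_subgroupOf_eq_of_le hY]
  have h3 := eq_bot_normal hqp (P.subgroupOf M) (A.subgroupOf M) (Q.subgroupOf M)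
    (hP.of_equiv (Subgroup.subgroupOfEquivOfLe hPM).symm) (hA.of_equiv (Subgroup.subgroupOfEquivOfLe hAM).symm)
    (hQ.of_equiv (Subgroup.subgroupOfEquivOfLe hQM).symm)
    (Subgroup.map_injective M.subtype_injective (by
      rw [key A Q hAM hQM, Subgroup.map_bot, eq_bot_iff, ← hAB]
      exact Subgroup.commutator_mono le_rfl hQB))
    ((Subgroup.map_le_map_iff_of_injective M.subtype_injective).1 (by
      rw [key P Q hPM hQM, key P A hPM hAM]
      exact (Subgroup.commutator_mono le_rfl hQB).trans hcomm))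
  have h4 := congrArg (Subgroup.map M.subtype) h3
  rw [key P Q hPM hQM, Subgroup.map_bot] at h4
  rw [← Subgroup.commutator_eq_bot_iff_le_centralizer, Subgroup.commutator_comm]
  exact h4

end Cfsg.Agent.Even.CommContain
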