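import Mathlib

set_option autoImplicit false

/-! The least subnormal supplement of a normal subgroup with perfect quotient. -/

namespace Cfsg.Agent.Even.LeastSupplement

variable {G : Type*} [Group G]

/-- Iterated commutators. -/
def br (M X : Subgroup G) : ℕ → Subgroup G
  | 0 => M
  | n + 1 => ⁅br M X n, X⁆

theorem br_mono {M M' X X' : Subgroup G} (hM : M ≤ M') (hX : X ≤ X') : ∀ n, br M X n ≤ br M' X' n
  | 0 => hM
  | n + 1 => Subgroup.commutator_mono (br_mono hM hX n) hX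

theorem br_le_left {M X : Subgroup G} (h : X ≤ Subgroup.normalizer (M : Set G)) : ∀ n, br M X n ≤ M
  | 0 => le_rfl
  | n + 1 => (Subgroup.commutator_mono (br_le_left h n) le_rfl).trans
      (Subgroup.le_normalizer_iff_commutator_le_left.1 h)

theorem exists_br_le {X : Subgroup G} (h : X.IsSubnormal) : ∃ n, br ⊤ X n ≤ X := by
  induction h with
  | top => exact ⟨0, le_rfl⟩
  | step H K hle _ hn ih =>
    obtain ⟨n, hn'⟩ := ih
    refine ⟨n + 1, ?_⟩
    refine le_trans (Subgroup.commutator_mono ((br_mono le_rfl hle n).trans hn') le_rfl) ?_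
    exact Subgroup.le_normalizer_iff_commutator_le_right.1 ((Subgroup.normal_subgroupOf_iff_le_normalizer hle).1 hn)

variable (D : Subgroup G) [D.Normal]

theorem br_sup (hperf : ⁅(⊤ : Subgroup G), (⊤ : Subgroup G)⁆ ⊔ D = ⊤) {M X : Subgroup G} (hM : M ⊔ D = ⊤)
    (hX : X ⊔ D = ⊤) : ∀ n, br M X n ⊔ D = ⊤ := by
  intro n
  induction n with
  | zero => exact hM
  | succ n ih =>
    have key : ∀ K : Subgroup G, K ⊔ D = ⊤ ↔ K.map (QuotientGroup.mk' D) = ⊤ := fun K => by
      constructor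
      · intro h
        have h' := congrArg (Subgroup.map (QuotientGroup.mk' D)) h
        rw [Subgroup.map_sup, QuotientGroup.map_mk'_self, sup_bot_eq,
          Subgroup.map_top_of_surjective _ (QuotientGroup.mk'_surjective D)] at h'
        exact h'
      · intro h
        have h' := congrArg (Subgroup.comap (QuotientGroup.mk' D)) h
        rw [Subgroup.comap_map_eq, QuotientGroup.ker_mk', Subgroup.comap_top] at h'
        exact h'
    rw [key] at ih hX hperf ⊢
    rw [Subgroup.map_commutator, Subgroup.map_top_of_surjective _ (QuotientGroup.mk'_surjective D)] at hperf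
    show Subgroup.map _ ⁅br M X n, X⁆ = ⊤
    rw [Subgroup.map_commutator, ih, hX, hperf]

theorem inf_sup (hperf : ⁅(⊤ : Subgroup G), (⊤ : Subgroup G)⁆ ⊔ D = ⊤) {M X : Subgroup G} (hM : M ⊔ D = ⊤)
    (hX : X ⊔ D = ⊤) (hXs : X.IsSubnormal) (hn : X ≤ Subgroup.normalizer (M : Set G)) : (M ⊓ X) ⊔ D = ⊤ := by
  obtain ⟨n, h⟩ := exists_br_le hXs
  refine top_le_iff.1 ((br_sup D hperf hM hX n).ge.trans (sup_le_sup_right (le_inf (br_le_left hn n) ?_) _))
  exact (br_mono le_top le_rfl n).trans h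

theorem subnormal_inf_sup (hperf : ⁅(⊤ : Subgroup G), (⊤ : Subgroup G)⁆ ⊔ D = ⊤) {B B' : Subgroup G}
    (hBs : B.IsSubnormal) (hB : B ⊔ D = ⊤) (hBs' : B'.IsSubnormal) (hB' : B' ⊔ D = ⊤) :
    (B ⊓ B') ⊔ D = ⊤ := by
  induction hBs with
  | top => rwa [top_inf_eq]
  | step H K hle hK hn ih =>
    have hKD : K ⊔ D = ⊤ := top_le_iff.1 (hB.ge.trans (sup_le_sup_right hle _))
    have h1 := inf_sup D hperf hB (ih hKD) (hK.inf hBs')
      (inf_le_left.trans ((Subgroup.normal_subgroupOf_iff_le_normalizer hle).1 hn))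
    refine top_le_iff.1 (h1.ge.trans (sup_le_sup_right (le_inf inf_le_left (inf_le_right.trans inf_le_right)) _))

theorem exists_least [Finite G] (hperf : ⁅(⊤ : Subgroup G), (⊤ : Subgroup G)⁆ ⊔ D = ⊤) :
    ∃ B : Subgroup G, B.Normal ∧ B ⊔ D = ⊤ ∧ ∀ B' : Subgroup G, B'.IsSubnormal → B' ⊔ D = ⊤ → B ≤ B' := by
  haveI : Finite (Subgroup G) := Finite.of_injective _ SetLike.coe_injective
  obtain ⟨B, hB⟩ := (Set.toFinite {B : Subgroup G | B.IsSubnormal ∧ B ⊔ D = ⊤}).exists_minimal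
    ⟨⊤, Subgroup.IsSubnormal.top, top_sup_eq _⟩
  have hleast : ∀ B' : Subgroup G, B'.IsSubnormal → B' ⊔ D = ⊤ → B ≤ B' := fun B' h1 h2 =>
    (hB.2 ⟨hB.1.1.inf h1, subnormal_inf_sup D hperf hB.1.1 hB.1.2 h1 h2⟩ inf_le_left).trans inf_le_right
  refine ⟨B, ⟨fun n hn g => ?_⟩, hB.1.2, hleast⟩
  have h1 : ((MulAut.conj g⁻¹).toMonoidHom : G →* G).range = ⊤ :=
    MonoidHom.range_eq_top.2 (MulAut.conj g⁻¹).surjective
  have h3 := hleast (B.map (MulAut.conj g⁻¹).toMonoidHom) (hB.1.1.map (MulAut.conj g⁻¹).surjective) (by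
    have h' := congrArg (Subgroup.map (MulAut.conj g⁻¹).toMonoidHom) hB.1.2
    rw [Subgroup.map_sup, Subgroup.map_top_of_surjective _ (MulAut.conj g⁻¹).surjective] at h'
    refine top_le_iff.1 (h'.ge.trans (sup_le_sup_left ?_ _))
    rintro _ ⟨d, hd, rfl⟩
    exact (inferInstance : D.Normal).conj_mem d hd g⁻¹)
  obtain ⟨m, hm, hmn⟩ := h3 hn
  have : g * n * g⁻¹ = m := by
    rw [← hmn]
    show g * (g⁻¹ * m * g⁻¹⁻¹) * g⁻¹ = m
    group
  exact this ▸ hm

end Cfsg.Agent.Even.LeastSupplement
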