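import Mathlib

set_option autoImplicit false

/-! p-locally central elements. -/

namespace Cfsg.Agent.Even.LocCentral

variable {G : Type*} [Group G] [Finite G] {p : ℕ} [Fact p.Prime]

theorem sylow_inf_max (P : Sylow p G) (N : Subgroup G) [N.Normal] {S : Subgroup G} (hS : IsPGroup p S)
    (hSN : S ≤ N) (hle : (P : Subgroup G) ⊓ N ≤ S) : S ≤ (P : Subgroup G) ⊓ N := by
  obtain ⟨T, hT⟩ := hS.exists_le_sylow
  obtain ⟨g, hg⟩ := MulAction.exists_smul_eq G T P
  have h1 : S.map (MulAut.conj g).toMonoidHom ≤ (P : Subgroup G) ⊓ N := by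
    rintro _ ⟨s, hs, rfl⟩
    refine ⟨?_, ‹N.Normal›.conj_mem s (hSN hs) g⟩
    rw [← hg]
    simp only [Sylow.coe_subgroup_smul]
    exact ⟨s, hT hs, rfl⟩
  have hc := Subgroup.card_le_of_le h1
  rw [Subgroup.card_map_of_injective (MulAut.conj g).injective] at hc
  exact (Subgroup.eq_of_le_of_card_ge hle hc).ge

theorem main (P : Sylow p G) (x : G) (hxP : x ∈ (P : Subgroup G))
    (hlc : ∀ R : Subgroup G, R ≤ (P : Subgroup G) → R ≠ ⊥ → Subgroup.normalizer (R : Set G) ≤ Subgroup.centralizer ({x} : Set G)) :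
    (P : Subgroup G) ≤ Subgroup.centralizer ({x} : Set G) ∧
      (∀ g : G, g * x * g⁻¹ ∈ (P : Subgroup G) → g * x * g⁻¹ = x) ∧
      ∀ (N : Subgroup G) [N.Normal], ∀ R : Subgroup (G ⧸ N), R ≤ (P : Subgroup G).map (QuotientGroup.mk' N) → R ≠ ⊥ →
        Subgroup.normalizer (R : Set (G ⧸ N)) ≤ Subgroup.centralizer ({(QuotientGroup.mk x : G ⧸ N)} : Set (G ⧸ N)) := by
  have hPC : (P : Subgroup G) ≤ Subgroup.centralizer ({x} : Set G) := by
    by_cases hP : (P : Subgroup G) = ⊥
    · rw [hP]; exact bot_le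
    · exact Subgroup.le_normalizer.trans (hlc _ le_rfl hP)
  refine ⟨hPC, fun g hg => ?_, fun N _ R hR hR1 => ?_⟩
  · by_cases hx : x = 1
    · simp [hx]
    have hy1 : g * x * g⁻¹ ≠ 1 := by simpa using hx
    set y := g * x * g⁻¹ with hy
    have hP : (P : Subgroup G) ≠ ⊥ := fun e => hx (by rw [e] at hxP; exact hxP)
    have hsub : ((g • P : Sylow p G) : Subgroup G) ≤ Subgroup.centralizer ({x} : Set G) := by
      intro z hz
      rw [Sylow.coe_subgroup_smul] at hz
      obtain ⟨s, hs, rfl⟩ := hz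
      refine hlc (Subgroup.zpowers y) (Subgroup.zpowers_le.2 hg) (by rwa [Ne, Subgroup.zpowers_eq_bot]) ?_
      refine Subgroup.centralizer_le_normalizer _ ?_
      intro w hw
      obtain ⟨k, rfl⟩ := Subgroup.mem_zpowers_iff.1 hw
      have e : x * s = s * x := (Subgroup.mem_centralizer_singleton_iff.1 (hPC hs)).symm
      have hcy : Commute y (g * s * g⁻¹) := by
        show y * (g * s * g⁻¹) = g * s * g⁻¹ * y
        calc y * (g * s * g⁻¹) = g * (x * s) * g⁻¹ := by simp only [hy]; group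
          _ = g * (s * x) * g⁻¹ := by rw [e]
          _ = _ := by simp only [hy]; group
      exact (hcy.zpow_left k).eq
    obtain ⟨n, hn⟩ := MulAction.exists_smul_eq (Subgroup.centralizer ({x} : Set G)) ((g • P).subtype hsub) (P.subtype hPC)
    rw [Sylow.smul_subtype] at hn
    have hfix := Sylow.subtype_injective hn
    rw [Subgroup.smul_def, smul_smul] at hfix
    have h2 := hlc _ le_rfl hP (Sylow.smul_eq_iff_mem_normalizer.1 hfix)
    have h3 : g ∈ Subgroup.centralizer ({x} : Set G) := by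
      have := Subgroup.mul_mem _ (Subgroup.inv_mem _ n.2) h2
      simpa using this
    rw [hy, Subgroup.mem_centralizer_singleton_iff.1 h3, mul_inv_cancel_right]
  · set f := QuotientGroup.mk' N
    set K := R.comap f
    set R0 := K ⊓ (P : Subgroup G)
    have hR0 : IsPGroup p R0 := P.2.to_le inf_le_right
    have hmap : R0.map f = R := by
      refine le_antisymm (Subgroup.map_le_iff_le_comap.2 inf_le_left) fun r hr => ?_
      obtain ⟨s, hs, rfl⟩ := hR hr
      exact ⟨s, ⟨hr, hs⟩, rfl⟩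
    have hR01 : R0 ≠ ⊥ := fun e => hR1 (by rw [← hmap, e, Subgroup.map_bot])
    have hmax : ∀ S : Subgroup G, IsPGroup p S → S ≤ K → R0 ≤ S → S ≤ R0 := by
      intro S hS hSK hle s hs
      have h1 : f s ∈ R0.map f := by rw [hmap]; exact hSK hs
      obtain ⟨r, hr, e⟩ := h1
      have hN : r⁻¹ * s ∈ N := QuotientGroup.eq.1 e
      have h2 := sylow_inf_max P N (S := S ⊓ N) (hS.to_le inf_le_left) inf_le_right
        (le_inf (fun z hz => hle ⟨by
          show f z ∈ R
          rw [show f z = 1 from (QuotientGroup.eq_one_iff z).2 hz.2]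
          exact R.one_mem, hz.1⟩) inf_le_right) ⟨S.mul_mem (S.inv_mem (hle hr)) hs, hN⟩
      refine ⟨hSK hs, ?_⟩
      have h3 := (P : Subgroup G).mul_mem hr.2 h2.1
      rw [mul_inv_cancel_left] at h3
      exact h3
    intro z hz
    obtain ⟨n, rfl⟩ := QuotientGroup.mk'_surjective N z
    have hcK : R0.map (MulAut.conj n).toMonoidHom ≤ K := by
      rintro _ ⟨r, hr, rfl⟩
      show f (n * r * n⁻¹) ∈ R
      rw [map_mul, map_mul, map_inv]
      exact (Subgroup.mem_normalizer_iff.1 hz _).1 hr.1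
    obtain ⟨S, hS⟩ := ((hR0.map _).of_equiv (Subgroup.subgroupOfEquivOfLe hcK).symm).exists_le_sylow
    have hP0 : ∀ S : Subgroup K, IsPGroup p S → R0.subgroupOf K ≤ S → S = R0.subgroupOf K := by
      intro S hS hle
      refine le_antisymm (fun s hs => ?_) hle
      exact hmax (S.map K.subtype) (hS.map _) (Subgroup.map_subtype_le _)
        (fun r hr => ⟨⟨r, hr.1⟩, hle hr, rfl⟩) ⟨s, hs, rfl⟩
    let P0 : Sylow p K := ⟨R0.subgroupOf K, hR0.of_equiv (Subgroup.subgroupOfEquivOfLe inf_le_left).symm,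
      fun hS hle => hP0 _ hS hle⟩
    obtain ⟨k, hk⟩ := MulAction.exists_smul_eq K S P0
    have hkn : ∀ r ∈ R0, ((k : G) * n) * r * ((k : G) * n)⁻¹ ∈ R0 := by
      intro r hr
      have hm : (⟨n * r * n⁻¹, hcK ⟨r, hr, rfl⟩⟩ : K) ∈ (S : Subgroup K) := hS ⟨r, hr, rfl⟩
      have hm2 : k * ⟨n * r * n⁻¹, hcK ⟨r, hr, rfl⟩⟩ * k⁻¹ ∈ (P0 : Subgroup K) := by
        rw [← hk, Sylow.coe_subgroup_smul]; exact ⟨_, hm, rfl⟩
      have hm3 : (k : G) * (n * r * n⁻¹) * (k : G)⁻¹ ∈ R0 := hm2
      convert hm3 using 1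
      group
    have hnorm : (k : G) * n ∈ Subgroup.normalizer (R0 : Set G) := by
      have hle : R0.map (MulAut.conj ((k : G) * n)).toMonoidHom ≤ R0 := by
        rintro _ ⟨r, hr, rfl⟩; exact hkn r hr
      have he := Subgroup.eq_of_le_of_card_ge hle (by rw [Subgroup.card_map_of_injective (MulAut.conj _).injective])
      refine Subgroup.mem_normalizer_iff.2 fun r => ⟨hkn r, fun hr => ?_⟩
      rw [← he] at hr
      obtain ⟨r', hr', e⟩ := hr
      have : r' = r := (MulAut.conj ((k : G) * n)).injective e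
      exact this ▸ hr'
    have h1 := hlc R0 inf_le_right hR01 hnorm
    have hkR : f (k : G) ∈ R0.map f := by rw [hmap]; exact k.2
    obtain ⟨r, hr, e⟩ := hkR
    have h2 : f r * f n ∈ (Subgroup.centralizer ({x} : Set G)).map f := ⟨(k : G) * n, h1, by rw [map_mul, e]⟩
    have h3 : f n ∈ (Subgroup.centralizer ({x} : Set G)).map f := by
      have h4 : f r ∈ (Subgroup.centralizer ({x} : Set G)).map f := ⟨r, hPC hr.2, rfl⟩
      simpa using Subgroup.mul_mem _ (Subgroup.inv_mem _ h4) h2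
    obtain ⟨c, hc, ec⟩ := h3
    rw [← ec, Subgroup.mem_centralizer_singleton_iff]
    show f c * f x = f x * f c
    rw [← map_mul, ← map_mul, Subgroup.mem_centralizer_singleton_iff.1 hc]

end Cfsg.Agent.Even.LocCentral
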