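import Cfsg.Agent.Even.CharPCriteria
import Cfsg.Prelude.Def_CaseTheorems

set_option autoImplicit false

/-! Parabolic characteristic 2 and the odd core. -/

namespace Cfsg.Agent.Even

open Cfsg

variable {G : Type*} [Group G] [Finite G]

theorem oddCore_eq_bot (h2 : 2 ∣ Nat.card G) (hG : IsOfParabolicCharacteristic 2 G) [hN : (oddCore G).Normal]
    (hZ : Subgroup.center (G ⧸ oddCore G) = ⊥) : oddCore G = ⊥ := by
  have : Fact (Nat.Prime 2) := ⟨Nat.prime_two⟩
  by_contra hO
  obtain ⟨S⟩ : Nonempty (Sylow 2 G) := inferInstance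
  set O := oddCore G
  obtain ⟨-, hOc⟩ := Solv.pPrimeCore_mem (G := G) 2
  have hSne : (S : Subgroup G) ≠ ⊥ := S.ne_bot_of_dvd_card h2
  -- a central involution of `S` inverts `O`
  have key : ∀ z ∈ (S : Subgroup G), orderOf z = 2 → (∀ s ∈ (S : Subgroup G), s * z = z * s) →
      ∀ o ∈ O, z * o * z⁻¹ = o⁻¹ := by
    intro z hzS hz2 hzc
    have hz1 : z ≠ 1 := fun e => by rw [e, orderOf_one] at hz2; exact absurd hz2 (by norm_num)
    have hch : PSolv.SelfCentralizingCore 2 ↥(Subgroup.centralizer ({z} : Set G)) :=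
      Layer.fstar_eq_pCore_iff.1 ((local_criteria S h2 ⊥ bot_le).2.1.1 hG z hz1
        (Subgroup.subset_closure ⟨⟨hzS, fun s hs => hzc s hs⟩, orderOf_dvd_iff_pow_eq_one.1 hz2.dvd⟩))
    have hb := Layer.pPrimeCore_bot_of_selfCentralizing hch
    have hfix : ∀ o ∈ O, z * o * z⁻¹ = o → o = 1 := by
      intro o ho e
      have hoC : o ∈ Subgroup.centralizer ({z} : Set G) := by
        rw [Subgroup.mem_centralizer_singleton_iff]
        calc o * z = z * o * z⁻¹ * z := by rw [e]
          _ = z * o := by group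
      have hle : O.subgroupOf (Subgroup.centralizer ({z} : Set G)) ≤ pPrimeCore 2 ↥(Subgroup.centralizer ({z} : Set G)) := by
        refine le_sSup ⟨inferInstance, Nat.Coprime.coprime_dvd_left ?_ hOc⟩
        rw [Nat.card_congr (Subgroup.equivMapOfInjective (O.subgroupOf (Subgroup.centralizer ({z} : Set G))) _
          (Subgroup.centralizer ({z} : Set G)).subtype_injective).toEquiv]
        exact Subgroup.card_dvd_of_le (by rintro _ ⟨x, hx, rfl⟩; exact hx)
      have h3 : (⟨o, hoC⟩ : Subgroup.centralizer ({z} : Set G)) ∈ O.subgroupOf _ := ho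
      have h4 := hle h3
      rw [hb, Subgroup.mem_bot] at h4
      exact congrArg Subtype.val h4
    let φ : O →* O :=
      { toFun := fun o => ⟨z * (o : G) * z⁻¹, hN.conj_mem o o.2 z⟩
        map_one' := Subtype.ext (by simp)
        map_mul' := fun a b => Subtype.ext (by simp [mul_assoc]) }
    have hfp : MonoidHom.FixedPointFree φ := fun o ho =>
      Subtype.ext (hfix o o.2 (congrArg Subtype.val ho))
    have hinv : Function.Involutive φ := by
      intro o
      have e : z * z = 1 := by rw [← sq]; exact orderOf_dvd_iff_pow_eq_one.1 hz2.dvd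
      refine Subtype.ext ?_
      show z * (z * (o : G) * z⁻¹) * z⁻¹ = o
      calc z * (z * (o : G) * z⁻¹) * z⁻¹ = z * z * (o : G) * (z * z)⁻¹ := by group
        _ = o := by rw [e]; group
    intro o ho
    have := congrFun (MonoidHom.FixedPointFree.coe_eq_inv_of_involutive hfp hinv) ⟨o, ho⟩
    exact congrArg Subtype.val this
  obtain ⟨z, hzS, hz2, hzc⟩ := exists_central_order_p S.2 hSne
  -- `C(O) = O`
  set C := Subgroup.centralizer (O : Set G)
  have hCn : C.Normal := by
    refine ⟨fun x hx g => ?_⟩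
    rw [Subgroup.mem_centralizer_iff]
    intro o ho
    have e := Subgroup.mem_centralizer_iff.1 hx _ (hN.conj_mem o ho g⁻¹)
    simp only [inv_inv] at e
    calc o * (g * x * g⁻¹) = g * (g⁻¹ * o * g * x) * g⁻¹ := by group
      _ = g * (x * (g⁻¹ * o * g)) * g⁻¹ := by rw [e]
      _ = g * x * g⁻¹ * o := by group
  have hCO : C ≤ O := by
    refine le_sSup ⟨hCn, ?_⟩
    rw [Nat.coprime_comm, Nat.prime_two.coprime_iff_not_dvd]
    intro hd
    obtain ⟨u, hu⟩ := exists_prime_orderOf_dvd_card' (G := C) 2 hd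
    obtain ⟨T, hT⟩ := (show IsPGroup 2 (Subgroup.zpowers (u : G)) from IsPGroup.of_card (n := 1) (by
      rw [Nat.card_zpowers, Subgroup.orderOf_coe, hu, pow_one])).exists_le_sylow
    obtain ⟨g, hg⟩ := MulAction.exists_smul_eq G T S
    have hmem : g * (u : G) * g⁻¹ ∈ (S : Subgroup G) := by
      rw [← hg]; exact ⟨_, hT (Subgroup.mem_zpowers _), rfl⟩
    have hSC : ((S : Subgroup G) ⊓ C).subgroupOf (S : Subgroup G) ≠ ⊥ := by
      intro e
      have h5 : (⟨_, hmem⟩ : (S : Subgroup G)) ∈ ((S : Subgroup G) ⊓ C).subgroupOf (S : Subgroup G) :=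
        ⟨hmem, hCn.conj_mem _ u.2 g⟩
      rw [e, Subgroup.mem_bot] at h5
      have h6 : g * (u : G) * g⁻¹ = 1 := congrArg Subtype.val h5
      have h7 : (u : G) = 1 := conj_eq_one_iff.1 h6
      rw [← Subgroup.orderOf_coe, h7, orderOf_one] at hu
      exact absurd hu (by norm_num)
    have : Group.IsNilpotent (S : Subgroup G) := S.2.isNilpotent
    have hn : (((S : Subgroup G) ⊓ C).subgroupOf (S : Subgroup G)).Normal := by
      rw [Subgroup.inf_subgroupOf_left]; infer_instance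
    have hne := Solv.inf_center_ne_bot hn hSC
    obtain ⟨w, hw, hw2, -⟩ := exists_central_order_p (S.2.to_le (Subgroup.map_subtype_le
      (((S : Subgroup G) ⊓ C).subgroupOf (S : Subgroup G) ⊓ Subgroup.center (S : Subgroup G))))
      (fun e => hne ((Subgroup.map_eq_bot_iff_of_injective _ (S : Subgroup G).subtype_injective).1 e))
    obtain ⟨v, ⟨hvC, hvZ⟩, rfl⟩ := hw
    have h8 := key (v : G) v.2 hw2 fun s hs => congrArg Subtype.val (Subgroup.mem_center_iff.1 hvZ ⟨s, hs⟩)
    obtain ⟨o, ho, ho1⟩ := (Subgroup.bot_or_exists_ne_one O).resolve_left hO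
    have h9 := h8 o ho
    have h10 : o * (v : G) = (v : G) * o := Subgroup.mem_centralizer_iff.1 hvC.2 o ho
    rw [← h10, mul_inv_cancel_right] at h9
    have h11 : o ^ 2 = 1 := by rw [sq]; exact mul_eq_one_iff_eq_inv.2 h9
    have h12 : (⟨o, ho⟩ : O) ^ 2 = 1 := Subtype.ext h11
    have h13 := (pow_gcd_eq_one (a := (⟨o, ho⟩ : O))).2 ⟨h12, pow_card_eq_one'⟩
    rw [Nat.Coprime.gcd_eq_one (Nat.coprime_comm.1 hOc), pow_one] at h13
    exact ho1 (congrArg Subtype.val h13)
  -- so `z` is central modulo `O`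
  have hzO : z ∈ O := by
    have hc : (QuotientGroup.mk z : G ⧸ O) ∈ Subgroup.center (G ⧸ O) := by
      rw [Subgroup.mem_center_iff]
      intro q
      obtain ⟨g, rfl⟩ := QuotientGroup.mk_surjective q
      rw [← QuotientGroup.mk_mul, ← QuotientGroup.mk_mul]
      refine QuotientGroup.eq.2 (hCO ?_)
      rw [Subgroup.mem_centralizer_iff]
      intro o ho
      have a1 := key z hzS hz2 hzc
      have a2 : ∀ o ∈ O, g⁻¹ * z * g * o * (g⁻¹ * z * g)⁻¹ = o⁻¹ := by
        intro o ho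
        have := a1 _ (hN.conj_mem o ho g)
        calc g⁻¹ * z * g * o * (g⁻¹ * z * g)⁻¹ = g⁻¹ * (z * (g * o * g⁻¹) * z⁻¹) * g := by group
          _ = g⁻¹ * (g * o * g⁻¹)⁻¹ * g := by rw [this]
          _ = o⁻¹ := by group
      have a3 := a2 _ (O.inv_mem ho)
      have a4 : z⁻¹ * o⁻¹ * z = o := by
        have := a1 _ ho
        rw [← this]; group
      have e2 : (g * z)⁻¹ * (z * g) = z⁻¹ * (g⁻¹ * z * g) := by group
      rw [e2]
      rw [inv_inv] at a3
      have a5 : z⁻¹ * (g⁻¹ * z * g) * o⁻¹ * (z⁻¹ * (g⁻¹ * z * g))⁻¹ = z⁻¹ * o * z := by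
        calc z⁻¹ * (g⁻¹ * z * g) * o⁻¹ * (z⁻¹ * (g⁻¹ * z * g))⁻¹
            = z⁻¹ * (g⁻¹ * z * g * o⁻¹ * (g⁻¹ * z * g)⁻¹) * z := by group
          _ = z⁻¹ * o * z := by rw [a3]
      have a6 : z⁻¹ * o * z = o⁻¹ := by
        have := congrArg (·⁻¹) a4
        simpa [mul_assoc] using this
      rw [a6] at a5
      have a7 := congrArg (·⁻¹) a5
      simp only [mul_inv_rev, inv_inv] at a7
      calc o * (z⁻¹ * (g⁻¹ * z * g))
          = (z⁻¹ * (g⁻¹ * z * g)) * o * (z⁻¹ * (g⁻¹ * z * g))⁻¹ * (z⁻¹ * (g⁻¹ * z * g)) := by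
            congr 1
            refine Eq.trans a7.symm ?_
            group
        _ = z⁻¹ * (g⁻¹ * z * g) * o := by group
    rw [hZ, Subgroup.mem_bot] at hc
    exact (QuotientGroup.eq_one_iff z).1 hc
  have : orderOf (⟨z, hzO⟩ : O) = 2 := by rw [← Subgroup.orderOf_coe]; exact hz2
  have h14 : 2 ∣ Nat.card O := this ▸ orderOf_dvd_natCard _
  exact (Nat.prime_two.coprime_iff_not_dvd.1 (Nat.coprime_comm.1 hOc)) h14

end Cfsg.Agent.Even
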