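import Mathlib
import Cfsg.Prelude.Def_SylowChains

set_option autoImplicit false

/-! The graph on Sylow subgroups and strongly p-embedded subgroups. -/

namespace Cfsg.Agent.Even.SylowGraph

open Cfsg
open scoped Pointwise

variable {G : Type*} [Group G] {p : ℕ}

def Adj (S T : Sylow p G) : Prop := S ≠ T ∧ (S : Subgroup G) ⊓ (T : Subgroup G) ≠ ⊥

def Rel (S T : Sylow p G) : Prop := Relation.ReflTransGen Adj S T

theorem Adj.symm' {S T : Sylow p G} (h : Adj S T) : Adj T S := ⟨h.1.symm, by rw [inf_comm]; exact h.2⟩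

theorem Rel.symm' {S T : Sylow p G} (h : Rel S T) : Rel T S := by
  induction h with
  | refl => exact Relation.ReflTransGen.refl
  | tail _ hbc ih => exact Relation.ReflTransGen.head hbc.symm' ih

theorem mem_smul_sylow {S : Sylow p G} {g x : G} : x ∈ ((g • S : Sylow p G) : Subgroup G) ↔ g⁻¹ * x * g ∈ (S : Subgroup G) := by
  rw [Sylow.coe_subgroup_smul]
  constructor
  · rintro ⟨y, hy, rfl⟩
    show g⁻¹ * (g * y * g⁻¹) * g ∈ _
    rwa [show g⁻¹ * (g * y * g⁻¹) * g = y by group]
  · intro h; exact ⟨_, h, by simp [mul_assoc]⟩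

theorem Rel.smul' {S T : Sylow p G} (g : G) (h : Rel S T) : Rel (g • S) (g • T) := by
  refine Relation.ReflTransGen.lift (fun S : Sylow p G => g • S) (fun a b hab => ?_) _ _ h
  refine ⟨fun e => hab.1 (MulAction.injective g e), fun e => hab.2 ?_⟩
  rw [eq_bot_iff] at e ⊢
  intro x hx
  have h1 : g * x * g⁻¹ ∈ (⊥ : Subgroup G) :=
    e ⟨mem_smul_sylow.2 (by rw [show g⁻¹ * (g * x * g⁻¹) * g = x by group]; exact hx.1),
        mem_smul_sylow.2 (by rw [show g⁻¹ * (g * x * g⁻¹) * g = x by group]; exact hx.2)⟩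
  simpa using h1

theorem exists_chain {S T : Sylow p G} (h : Rel S T) : ∃ (n : ℕ) (c : Fin (n + 1) → Sylow p G),
    c 0 = S ∧ c (Fin.last n) = T ∧ ∀ i : Fin n, Adj (c i.castSucc) (c i.succ) := by
  induction h with
  | refl => exact ⟨0, fun _ => S, rfl, rfl, fun i => i.elim0⟩
  | tail _ hbc ih =>
    rename_i b T _
    obtain ⟨n, c, h0, hl, hs⟩ := ih
    refine ⟨n + 1, Fin.snoc c T, ?_, Fin.snoc_last _ _, fun i => ?_⟩
    · rw [← Fin.castSucc_zero, Fin.snoc_castSucc]; exact h0
    · refine Fin.lastCases ?_ (fun j => ?_) i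
      · rw [Fin.snoc_castSucc, Fin.succ_last, Fin.snoc_last, hl]; exact hbc
      · rw [Fin.snoc_castSucc, Fin.succ_castSucc, Fin.snoc_castSucc]; exact hs j

theorem rel_of_connected (h : IsSylowChainConnected p G) (S T : Sylow p G) : Rel S T := by
  obtain ⟨n, c, rfl, rfl, -, hs⟩ := h S T
  have : ∀ i : Fin (n + 1), Rel (c 0) (c i) := by
    intro i
    induction i using Fin.induction with
    | zero => exact Relation.ReflTransGen.refl
    | succ j ih => exact Relation.ReflTransGen.tail ih (hs j)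
  exact this _

theorem connected_of_rel (h : ∀ S T : Sylow p G, Rel S T) : IsSylowChainConnected p G := by
  intro S T
  by_cases hST : S = T
  · exact ⟨0, fun _ => S, rfl, hST, fun _ => inf_le_left, fun i => i.elim0⟩
  by_cases hi : (S : Subgroup G) ⊓ (T : Subgroup G) = ⊥
  · obtain ⟨n, c, h0, hl, hs⟩ := exists_chain (h S T)
    exact ⟨n, c, h0, hl, fun i => by rw [hi]; exact bot_le, hs⟩
  · refine ⟨1, ![S, T], rfl, rfl, fun i => ?_, fun i => ?_⟩
    · fin_cases i
      · exact inf_le_left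
      · exact inf_le_right
    · fin_cases i; exact ⟨hST, hi⟩

theorem sylow_le_of_meets [Finite G] [Fact p.Prime] {H : Subgroup G}
    (hH : ∀ g : G, g ∉ H → ¬ p ∣ Nat.card ↥(H ⊓ H.map (MulAut.conj g).toMonoidHom))
    (T : Sylow p G) (hT : (T : Subgroup G) ⊓ H ≠ ⊥) : (T : Subgroup G) ≤ H := by
  by_contra hne
  have : Group.IsNilpotent (T : Subgroup G) := (T.2 : IsPGroup p (T : Subgroup G)).isNilpotent
  have hlt : H.subgroupOf (T : Subgroup G) < ⊤ := by
    rw [lt_top_iff_ne_top, Ne, Subgroup.subgroupOf_eq_top]; exact hne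
  obtain ⟨x, hx, hxM⟩ := SetLike.exists_of_lt (normalizerCondition_of_isNilpotent (G := (T : Subgroup G)) _ hlt)
  have hle : (T : Subgroup G) ⊓ H ≤ H ⊓ H.map (MulAut.conj (x : G)).toMonoidHom := by
    intro y hy
    refine ⟨hy.2, ⟨(x : G)⁻¹ * y * x, ?_, by simp [mul_assoc]⟩⟩
    have h1 := (Subgroup.mem_normalizer_iff.1 (Subgroup.inv_mem _ hx) ⟨y, hy.1⟩).1 hy.2
    rw [Subgroup.mem_subgroupOf] at h1
    simpa using h1
  obtain ⟨k, hk⟩ := (IsPGroup.iff_card).1 ((T.2 : IsPGroup p (T : Subgroup G)).to_le (inf_le_left : (T : Subgroup G) ⊓ H ≤ _))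
  refine hH x hxM (dvd_trans ?_ (Subgroup.card_dvd_of_le hle))
  rw [hk]
  refine dvd_pow_self p fun hk0 => hT (Subgroup.eq_bot_of_card_eq _ (by rw [hk, hk0, pow_zero]))

theorem main [Finite G] [Fact p.Prime] : ¬ IsSylowChainConnected p G ↔
    ∃ H : Subgroup G, H ≠ ⊤ ∧ p ∣ Nat.card H ∧
      ∀ g : G, g ∉ H → ¬ p ∣ Nat.card ↥(H ⊓ H.map (MulAut.conj g).toMonoidHom) := by
  constructor
  · intro hnc
    obtain ⟨S, T, hST⟩ : ∃ S T : Sylow p G, ¬ Rel S T := by
      by_contra h; push Not at h; exact hnc (connected_of_rel h)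
    let H : Subgroup G :=
      { carrier := {g | Rel S (g • S)}
        mul_mem' := fun {a b} ha hb => by
          show Rel S ((a * b) • S)
          rw [mul_smul]
          exact Relation.ReflTransGen.trans ha (Rel.smul' a hb)
        one_mem' := by show Rel S ((1 : G) • S); rw [one_smul]; exact Relation.ReflTransGen.refl
        inv_mem' := fun {a} ha => by
          show Rel S (a⁻¹ • S)
          have h1 := (Rel.smul' a⁻¹ ha).symm'
          rwa [inv_smul_smul] at h1 }
    have hSH : (S : Subgroup G) ≤ H := fun s hs => by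
      show Rel S (s • S)
      rw [Sylow.smul_eq_iff_mem_normalizer.2 (Subgroup.le_normalizer hs)]
      exact Relation.ReflTransGen.refl
    refine ⟨H, fun e => ?_, ?_, fun g hg hp => hg ?_⟩
    · obtain ⟨g, rfl⟩ := MulAction.exists_smul_eq G S T
      exact hST (show g ∈ H by rw [e]; trivial)
    · obtain ⟨k, hk⟩ := (IsPGroup.iff_card).1 (S.2 : IsPGroup p (S : Subgroup G))
      refine dvd_trans ?_ (Subgroup.card_dvd_of_le hSH)
      rw [hk]
      refine dvd_pow_self p fun hk0 => hST ?_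
      have e0 : (S : Subgroup G) = ⊥ := Subgroup.eq_bot_of_card_eq _ (by rw [hk, hk0, pow_zero])
      have e1 : (S : Subgroup G) = T := S.is_maximal' T.2 (by rw [e0]; exact bot_le) |>.symm
      rw [Sylow.ext e1]; exact Relation.ReflTransGen.refl
    · obtain ⟨z, hz⟩ := exists_prime_orderOf_dvd_card' p hp
      have hin : ∀ y : G, y ∈ H → orderOf y = p → ∃ h ∈ H, y ∈ ((h • S : Sylow p G) : Subgroup G) := by
        intro y hy ho
        have hpy : IsPGroup p (Subgroup.zpowers (⟨y, hy⟩ : H)) :=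
          IsPGroup.of_card (n := 1) (by rw [Nat.card_zpowers, Subgroup.orderOf_mk, ho, pow_one])
        obtain ⟨R, hR⟩ := hpy.exists_le_sylow
        obtain ⟨h, hh⟩ := MulAction.exists_smul_eq H (S.subtype hSH) R
        refine ⟨h, h.2, ?_⟩
        have h1 := hR (Subgroup.mem_zpowers _)
        rw [← hh, Sylow.smul_subtype] at h1
        exact h1
      have hzo : orderOf (z : G) = p := by rw [Subgroup.orderOf_coe, hz]
      obtain ⟨a, ha, hza⟩ := hin z z.2.1 hzo
      obtain ⟨w, hw, hwe⟩ := z.2.2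
      obtain ⟨b, hb, hwb⟩ := hin w hw (by
        rw [← hzo, ← hwe]; exact (orderOf_injective (MulAut.conj g).toMonoidHom (MulAut.conj g).injective w).symm)
      have hzb : (z : G) ∈ (((g * b) • S : Sylow p G) : Subgroup G) := by
        rw [← hwe, mem_smul_sylow]
        have h1 := mem_smul_sylow.1 hwb
        show (g * b)⁻¹ * (g * w * g⁻¹) * (g * b) ∈ _
        simpa [mul_assoc] using h1
      have hgb : g * b ∈ H := by
        show Rel S ((g * b) • S)
        refine Relation.ReflTransGen.trans (ha : Rel S (a • S)) ?_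
        by_cases e : a • S = (g * b) • S
        · rw [e]
        refine Relation.ReflTransGen.single ⟨e, fun e0 => ?_⟩
        have h1 : (z : G) ∈ (⊥ : Subgroup G) := e0 ▸ ⟨hza, hzb⟩
        rw [Subgroup.mem_bot] at h1
        rw [h1, orderOf_one] at hzo
        exact (Fact.out : p.Prime).one_lt.ne hzo
      simpa using H.mul_mem hgb (H.inv_mem hb)
  · rintro ⟨H, htop, hp, hH⟩ hc
    obtain ⟨z, hz⟩ := exists_prime_orderOf_dvd_card' p hp
    have hzo : orderOf (z : G) = p := by rw [Subgroup.orderOf_coe, hz]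
    obtain ⟨S, hS⟩ := (IsPGroup.of_card (n := 1) (by rw [Nat.card_zpowers, hzo, pow_one]) :
      IsPGroup p (Subgroup.zpowers (z : G))).exists_le_sylow
    have hz1 : (z : G) ≠ 1 := fun e => by
      rw [e, orderOf_one] at hzo; exact (Fact.out : p.Prime).one_lt.ne hzo
    have hS1 : (S : Subgroup G) ≠ ⊥ := fun e => hz1 (by
      have := hS (Subgroup.mem_zpowers (z : G)); rw [e] at this; exact this)
    have hSH : (S : Subgroup G) ≤ H := sylow_le_of_meets hH S fun e => hz1 (by
      have : (z : G) ∈ (S : Subgroup G) ⊓ H := ⟨hS (Subgroup.mem_zpowers _), z.2⟩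
      rw [e] at this; exact this)
    have hall : ∀ T, Rel S T → (T : Subgroup G) ≤ H := by
      intro T hT
      induction hT with
      | refl => exact hSH
      | tail _ hbc ih =>
        refine sylow_le_of_meets hH _ fun e => hbc.2 (le_bot_iff.1 ?_)
        rw [← e]
        exact le_inf inf_le_right (inf_le_left.trans ih)
    refine htop ((Subgroup.eq_top_iff' _).2 fun g => by_contra fun hg => hH g hg ?_)
    obtain ⟨k, hk⟩ := (IsPGroup.iff_card).1 ((g • S : Sylow p G).2)
    have hle : ((g • S : Sylow p G) : Subgroup G) ≤ H ⊓ H.map (MulAut.conj g).toMonoidHom := by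
      refine le_inf (hall _ (rel_of_connected hc _ _)) fun x hx => ⟨g⁻¹ * x * g, hSH (mem_smul_sylow.1 hx), by simp [mul_assoc]⟩
    refine dvd_trans ?_ (Subgroup.card_dvd_of_le hle)
    rw [hk]
    refine dvd_pow_self p fun hk0 => hS1 ?_
    refine le_bot_iff.1 fun s hs => ?_
    have h1 : g * s * g⁻¹ ∈ ((g • S : Sylow p G) : Subgroup G) := mem_smul_sylow.2 (by rw [show g⁻¹ * (g * s * g⁻¹) * g = s by group]; exact hs)
    rw [Subgroup.eq_bot_of_card_eq ((g • S : Sylow p G) : Subgroup G) (by rw [hk, hk0, pow_zero]), Subgroup.mem_bot] at h1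
    simpa using h1

end Cfsg.Agent.Even.SylowGraph
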